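import Mathlib
set_option linter.all false

/-!
Modules in characteristic `p` for groups with a cyclic trivial-intersection Sylow `p`-subgroup.
-/

set_option autoImplicit false

namespace Cfsg.Agent.H395.CyclicTI

open Finset Polynomial

/-- Sum over a finite set on which a finite group acts with one fixed point and freely elsewhere. -/
theorem sum_eq_of_free {P U M : Type*} [Group P] [Fintype P] [MulAction P U] [Fintype U] [AddCommMonoid M]
    (u₀ : U) (h₀ : ∀ y : P, y • u₀ = u₀) (hfree : ∀ u : U, u ≠ u₀ → ∀ y : P, y • u = u → y = 1) (f : U → M) :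
    ∃ R : Finset U, ∑ u, f u = f u₀ + ∑ r ∈ R, ∑ y : P, f (y • r) := by
  classical
  let Ω := {ω : MulAction.orbitRel.Quotient P U // ω ≠ Quotient.mk'' u₀}
  let Φ : Ω × P → {u : U // u ≠ u₀} := fun t => ⟨t.2 • (t.1.1.out : U), by
    intro h
    apply t.1.2
    have h1 : (t.1.1.out : U) = u₀ := by
      have h2 : t.2⁻¹ • (t.2 • (t.1.1.out : U)) = t.2⁻¹ • u₀ := by rw [h]
      rwa [inv_smul_smul, h₀] at h2
    have h3 : (Quotient.mk'' (t.1.1.out : U) : MulAction.orbitRel.Quotient P U) = t.1.1 := Quotient.out_eq' _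
    rw [← h3, h1]⟩
  have hΦ : Function.Bijective Φ := by
    constructor
    · rintro ⟨ω, y⟩ ⟨ω', y'⟩ h
      have h1 : y • (ω.1.out : U) = y' • (ω'.1.out : U) := congrArg Subtype.val h
      have h2 : ω.1 = ω'.1 := by
        rw [← Quotient.out_eq' ω.1, ← Quotient.out_eq' ω'.1]
        apply Quotient.sound'
        refine ⟨y⁻¹ * y', ?_⟩
        show (y⁻¹ * y') • (ω'.1.out : U) = (ω.1.out : U)
        rw [mul_smul, ← h1, inv_smul_smul]
      have h3 : ω = ω' := Subtype.ext h2
      subst h3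
      have h4 : (ω.1.out : U) ≠ u₀ := by
        intro h5
        apply ω.2
        rw [← Quotient.out_eq' ω.1, h5]
      have h5 : (y'⁻¹ * y) • (ω.1.out : U) = (ω.1.out : U) := by
        rw [mul_smul, h1, inv_smul_smul]
      have h6 := hfree _ h4 _ h5
      rw [inv_mul_eq_one] at h6
      rw [h6]
    · rintro ⟨u, hu⟩
      have h1 : (Quotient.mk'' u : MulAction.orbitRel.Quotient P U) ≠ Quotient.mk'' u₀ := by
        intro h
        obtain ⟨y, hy⟩ := Quotient.exact' h
        apply hu
        rw [← hy]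
        exact h₀ y
      have h2 : (Quotient.mk'' ((Quotient.mk'' u : MulAction.orbitRel.Quotient P U).out : U) :
          MulAction.orbitRel.Quotient P U) = Quotient.mk'' u := Quotient.out_eq' _
      obtain ⟨y, hy⟩ := Quotient.exact' h2.symm
      exact ⟨(⟨Quotient.mk'' u, h1⟩, y), Subtype.ext hy⟩
  refine ⟨Finset.univ.map ⟨fun ω : Ω => (ω.1.out : U), ?_⟩, ?_⟩
  · intro ω ω' h
    apply Subtype.ext
    have h1 : (ω.1.out : U) = (ω'.1.out : U) := h
    rw [← Quotient.out_eq' ω.1, ← Quotient.out_eq' ω'.1, h1]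
  · rw [Finset.sum_map]
    have h1 : ∑ u, f u = f u₀ + ∑ u : {u : U // u ≠ u₀}, f u := Fintype.sum_eq_add_sum_subtype_ne f u₀
    rw [h1]
    congr 1
    rw [← (Equiv.ofBijective Φ hΦ).sum_comp, Fintype.sum_prod_type]
    rfl

/-- The Mackey-Schur step: an operator `w` commuting with `N` is, modulo traces from `1` to `P`, an operator
commuting with `G`. -/
theorem exists_trace {G A : Type*} [Group G] [Finite G] [Ring A] (ρ : G →* A) (N P : Subgroup G) (hPN : P ≤ N)
    (hfree : ∀ g : G, g ∉ N → ∀ y ∈ P, g⁻¹ * y * g ∈ N → y = 1) [Fintype P] (w : A)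
    (hw : ∀ g ∈ N, ρ g * w = w * ρ g) :
    ∃ c φ : A, (∀ g : G, ρ g * c = c * ρ g) ∧ c = w + ∑ y : P, ρ y * φ * ρ (y⁻¹ : P) := by
  classical
  have hconj : ∀ g g' : G, g⁻¹ * g' ∈ N → ρ g * w * ρ g⁻¹ = ρ g' * w * ρ g'⁻¹ := by
    intro g g' h
    have h1 := hw _ h
    have h2 : g' = g * (g⁻¹ * g') := by group
    have h3 : ρ g' * w * ρ g'⁻¹ = ρ g * (ρ (g⁻¹ * g') * w) * ρ (g⁻¹ * g')⁻¹ * ρ g⁻¹ := by
      have h5 : ρ g' = ρ g * ρ (g⁻¹ * g') := by rw [← map_mul, ← h2]
      have h6 : ρ g'⁻¹ = ρ (g⁻¹ * g')⁻¹ * ρ g⁻¹ := by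
        rw [← map_mul]
        congr 1
        group
      rw [h5, h6]
      simp only [mul_assoc]
    rw [h3, h1]
    have h4 : ρ (g⁻¹ * g') * ρ (g⁻¹ * g')⁻¹ = 1 := by rw [← map_mul, mul_inv_cancel, map_one]
    calc ρ g * w * ρ g⁻¹ = ρ g * (w * (ρ (g⁻¹ * g') * ρ (g⁻¹ * g')⁻¹)) * ρ g⁻¹ := by rw [h4, mul_one]
      _ = _ := by simp only [mul_assoc]
  let f : G ⧸ N → A := fun u => Quotient.liftOn' u (fun g => ρ g * w * ρ g⁻¹) (by
    intro a b hab
    exact hconj a b (QuotientGroup.leftRel_apply.mp hab))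
  have hf : ∀ g : G, f (g : G ⧸ N) = ρ g * w * ρ g⁻¹ := fun g => rfl
  have hfs : ∀ (h : G) (u : G ⧸ N), f (h • u) = ρ h * f u * ρ h⁻¹ := by
    intro h u
    induction u using QuotientGroup.induction_on with
    | H g =>
      have : h • (g : G ⧸ N) = ((h * g : G) : G ⧸ N) := rfl
      rw [this, hf, hf, mul_inv_rev, map_mul, map_mul]
      simp only [mul_assoc]
  letI : Fintype (G ⧸ N) := Fintype.ofFinite _
  obtain ⟨R, hR⟩ := sum_eq_of_free (P := P) ((1 : G) : G ⧸ N) (by
      rintro ⟨y, hy⟩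
      show ((y * 1 : G) : G ⧸ N) = ((1 : G) : G ⧸ N)
      rw [QuotientGroup.eq]
      simpa using N.inv_mem (hPN hy))
    (by
      intro u hu y hy
      induction u using QuotientGroup.induction_on with
      | H g =>
        have h1 : (((y : G) * g : G) : G ⧸ N) = (g : G ⧸ N) := hy
        rw [QuotientGroup.eq] at h1
        have h2 : g ∉ N := by
          intro hg
          apply hu
          rw [QuotientGroup.eq]
          simpa using hg
        apply Subtype.ext
        refine hfree g h2 y y.2 ?_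
        have h3 := N.inv_mem h1
        have h4 : (((y : G) * g)⁻¹ * g)⁻¹ = g⁻¹ * y * g := by group
        rwa [h4] at h3) f
  refine ⟨∑ u, f u, ∑ r ∈ R, f r, ?_, ?_⟩
  · intro g
    have h1 : ρ g * (∑ u, f u) * ρ g⁻¹ = ∑ u, f u := by
      rw [Finset.mul_sum, Finset.sum_mul]
      rw [← Equiv.sum_comp (MulAction.toPerm g : Equiv.Perm (G ⧸ N)) f]
      refine Finset.sum_congr rfl fun u _ => ?_
      exact (hfs g u).symm
    calc ρ g * ∑ u, f u = ρ g * (∑ u, f u) * ρ g⁻¹ * ρ g := by
          rw [mul_assoc, ← map_mul, inv_mul_cancel, map_one, mul_one]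
      _ = _ := by rw [h1]
  · rw [hR]
    congr 1
    · rw [hf]; simp
    · rw [Finset.sum_comm]
      refine Finset.sum_congr rfl fun y _ => ?_
      rw [Finset.mul_sum, Finset.sum_mul]
      refine Finset.sum_congr rfl fun r _ => ?_
      exact hfs y r

/-- `1 + z + ... + z^(q-1) = (z - 1)^(q-1)` in characteristic `p`, `q = p^n`. -/
theorem geom_sum_char {F B : Type*} [Field F] [Ring B] [Algebra F B] (p n : ℕ) [Fact p.Prime] [CharP F p] (z : B) :
    ∑ k ∈ range (p ^ n), z ^ k = (z - 1) ^ (p ^ n - 1) := by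
  have h1 : (∑ k ∈ range (p ^ n), (X : F[X]) ^ k) = (X - 1) ^ (p ^ n - 1) := by
    have h2 : (X - 1 : F[X]) ≠ 0 := by
      have := X_sub_C_ne_zero (1 : F)
      rwa [map_one] at this
    apply mul_left_cancel₀ h2
    rw [mul_geom_sum, ← pow_succ', Nat.sub_add_cancel (Nat.one_le_pow _ _ (Fact.out : p.Prime).pos)]
    rw [sub_pow_char_pow, one_pow]
  have h3 := congrArg (aeval z) h1
  simpa using h3

/-- The trace over a cyclic `p`-group lands deep in the radical. -/
theorem pow_mul_trace_eq_zero {F A : Type*} [Field F] [Ring A] [Algebra F A] (p n : ℕ) [Fact p.Prime] [CharP F p]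
    (a b : A) (hab : a * b = 1) (hba : b * a = 1) (m j : ℕ) (hm : (a - 1) ^ m = 0) (hj : 2 * m ≤ j + p ^ n) (φ : A) :
    (a - 1) ^ j * ∑ k ∈ range (p ^ n), a ^ k * φ * b ^ k = 0 := by
  set x : A := a - 1 with hx
  let l : A → Module.End F A := fun c => LinearMap.mulLeft F c
  let r : A → Module.End F A := fun c => LinearMap.mulRight F c
  have hl : ∀ c d, l c d = c * d := fun c d => rfl
  have hr : ∀ c d, r c d = d * c := fun c d => rfl
  have hlp : ∀ (c : A) (k : ℕ), (l c) ^ k = l (c ^ k) := by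
    intro c k
    induction k with
    | zero => ext d; simp [hl]
    | succ k ih => ext d; rw [pow_succ, ih, Module.End.mul_apply, hl, hl, hl, pow_succ, mul_assoc]
  have hrp : ∀ (c : A) (k : ℕ), (r c) ^ k = r (c ^ k) := by
    intro c k
    induction k with
    | zero => ext d; simp [hr]
    | succ k ih => ext d; rw [pow_succ, ih, Module.End.mul_apply, hr, hr, hr, pow_succ', mul_assoc]
  have hlr : ∀ c d, Commute (l c) (r d) := by
    intro c d
    apply LinearMap.ext
    intro e
    rw [Module.End.mul_apply, Module.End.mul_apply, hl, hr, hr, hl, mul_assoc]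
  set z : Module.End F A := l a * r b with hz
  have hzk : ∀ (k : ℕ), (z ^ k) φ = a ^ k * φ * b ^ k := by
    intro k
    rw [hz, (hlr a b).mul_pow, hlp, hrp, Module.End.mul_apply, hl, hr, mul_assoc]
  have hsum : ∑ k ∈ range (p ^ n), a ^ k * φ * b ^ k = ((z - 1) ^ (p ^ n - 1)) φ := by
    rw [← geom_sum_char (F := F) p n z, LinearMap.sum_apply]
    exact Finset.sum_congr rfl fun k _ => (hzk k).symm
  have hz1 : z - 1 = (l x + r (-x)) * r b := by
    apply LinearMap.ext
    intro d
    simp only [hz, LinearMap.sub_apply, Module.End.mul_apply, Module.End.one_apply, LinearMap.add_apply,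
      hl, hr, hx]
    have h1 : d * b * -(a - 1) = d * b - d := by rw [mul_neg, mul_sub, mul_assoc, hba]; simp
    rw [h1]
    noncomm_ring
  have hrr : Commute (r (-x)) (r b) := by
    have hxb : (-x) * b = b * (-x) := by rw [hx, neg_mul, mul_neg, sub_mul, mul_sub, hab, hba]; simp
    apply LinearMap.ext
    intro e
    rw [Module.End.mul_apply, Module.End.mul_apply, hr, hr, hr, hr, mul_assoc, mul_assoc, hxb]
  have hc1 : Commute (l x + r (-x)) (r b) := (hlr x b).add_left hrr
  rw [hsum, hz1, hc1.mul_pow, Module.End.mul_apply]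
  set ψ := ((r b) ^ (p ^ n - 1)) φ
  have h0 : (l x) ^ j * (l x + r (-x)) ^ (p ^ n - 1) = 0 := by
    have hcomm : Commute (l x) (r (-x)) := hlr x (-x)
    rw [hcomm.add_pow, Finset.mul_sum]
    refine Finset.sum_eq_zero fun i hi => ?_
    rw [Finset.mem_range] at hi
    have hq : 1 ≤ p ^ n := Nat.one_le_pow _ _ (Fact.out : p.Prime).pos
    by_cases hji : m ≤ j + i
    · have : (l x) ^ j * (l x) ^ i = 0 := by
        rw [← pow_add, hlp]
        have : x ^ (j + i) = 0 := pow_eq_zero_of_le hji hm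
        rw [this]
        apply LinearMap.ext
        intro d
        rw [hl]; simp
      rw [← mul_assoc, ← mul_assoc, this]
      simp
    · have h5 : m ≤ p ^ n - 1 - i := by omega
      have h6 : (r (-x)) ^ (p ^ n - 1 - i) = 0 := by
        rw [hrp, neg_pow, pow_eq_zero_of_le h5 hm]
        apply LinearMap.ext
        intro d
        simp [hr]
      rw [h6]
      simp
  have h7 := LinearMap.congr_fun h0 ψ
  rw [Module.End.mul_apply, hlp, hl] at h7
  simpa using h7

/-- An eigenvector of `N(P)` in the group algebra of the cyclic group `P = ⟨x⟩`, raised to the power `p - 1`. -/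
theorem exists_poly {G A F : Type*} [Group G] [Finite G] [Field F] [Ring A] [Algebra F A] (ρ : G →* A)
    (p : ℕ) [Fact p.Prime] [CharP F p] (x : G) (n : ℕ) (hn : n ≠ 0) (hx : orderOf x = p ^ n) (N L : Subgroup G)
    (hN : ∀ g ∈ N, ∃ i : ℕ, g * x * g⁻¹ = x ^ i) (hLN : L ≤ N) (hL : ¬ p ∣ Nat.card L)
    (hNL : ∀ g ∈ N, ∃ k : ℕ, ∃ l ∈ L, g = x ^ k * l) :
    ∃ f : F[X], f.eval 1 ≠ 0 ∧ ∀ g ∈ N, ρ g * aeval (ρ x) ((X - 1) ^ (p - 1) * f) =
      aeval (ρ x) ((X - 1) ^ (p - 1) * f) * ρ g := by
  classical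
  have hp : p.Prime := Fact.out
  choose k hk using fun l : L => hN l (hLN l.2)
  have hpk : ∀ l : L, (k l : F) ≠ 0 := by
    intro l h
    rw [CharP.cast_eq_zero_iff F p] at h
    have h1 : orderOf (x ^ k l) = orderOf x := by
      rw [← hk l]
      exact (MulAut.conj (l : G)).orderOf_eq x
    have h2 : orderOf (x ^ k l) ∣ p ^ (n - 1) := by
      apply orderOf_dvd_of_pow_eq_one
      obtain ⟨c, hc⟩ := h
      rw [hc, ← pow_mul, mul_assoc, mul_comm c, ← mul_assoc, ← pow_succ', Nat.sub_add_cancel (Nat.one_le_iff_ne_zero.mpr hn),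
        pow_mul, ← hx, pow_orderOf_eq_one, one_pow]
    rw [h1, hx] at h2
    have h3 := Nat.le_of_dvd (pow_pos hp.pos _) h2
    have h4 : p ^ (n - 1) < p ^ n := Nat.pow_lt_pow_right hp.one_lt (by omega)
    omega
  have hkk : ∀ g l : L, (k (g * l) : F) = k g * k l := by
    intro g l
    have h1 : x ^ k (g * l) = x ^ (k g * k l) := by
      rw [← hk (g * l), Subgroup.coe_mul, pow_mul, ← hk g, conj_pow, ← hk l]
      group
    rw [pow_eq_pow_iff_modEq, hx] at h1
    have h2 : k (g * l) ≡ k g * k l [MOD p] := h1.of_dvd (dvd_pow_self p hn)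
    rw [← Nat.cast_mul]
    exact (CharP.natCast_eq_natCast F p).mpr h2
  letI : Fintype L := Fintype.ofFinite _
  set f₁ : F[X] := ∑ l : L, C ((k l : F)⁻¹) * ∑ i ∈ range (k l), X ^ i with hf₁
  have hf₁1 : f₁.eval 1 ≠ 0 := by
    have h1 : f₁.eval 1 = (Nat.card L : F) := by
      rw [hf₁, eval_finset_sum]
      have h2 : ∀ l ∈ (Finset.univ : Finset L), eval 1 (C ((k l : F)⁻¹) * ∑ i ∈ range (k l), (X : F[X]) ^ i) = 1 := by
        intro l _
        rw [eval_mul, eval_C, eval_finset_sum]
        simp only [eval_pow, eval_X, one_pow, Finset.sum_const, Finset.card_range, nsmul_eq_mul, mul_one]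
        exact inv_mul_cancel₀ (hpk l)
      rw [Finset.sum_congr rfl h2]
      simp [Nat.card_eq_fintype_card]
    rw [h1]
    intro h
    rw [CharP.cast_eq_zero_iff F p] at h
    exact hL h
  set Y : A := aeval (ρ x) ((X - 1) * f₁) with hY
  have hYs : Y = ∑ l : L, algebraMap F A ((k l : F)⁻¹) * (ρ x ^ k l - 1) := by
    have h1 : (X - 1) * f₁ = ∑ l : L, C ((k l : F)⁻¹) * (X ^ k l - 1) := by
      rw [hf₁, Finset.mul_sum]
      refine Finset.sum_congr rfl fun l _ => ?_
      rw [← mul_geom_sum]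
      ring
    rw [hY, h1, map_sum]
    refine Finset.sum_congr rfl fun l _ => ?_
    rw [map_mul, aeval_C, map_sub, map_pow, aeval_X, map_one]
  have hYL : ∀ g : L, ρ g * Y = (algebraMap F A (k g : F) * Y) * ρ g := by
    intro g
    have h1 : ρ g * Y * ρ (g : G)⁻¹ = algebraMap F A (k g : F) * Y := by
      rw [hYs, Finset.mul_sum, Finset.sum_mul, Finset.mul_sum]
      have h2 : ∀ l ∈ (Finset.univ : Finset L), ρ g * (algebraMap F A ((k l : F)⁻¹) * (ρ x ^ k l - 1)) * ρ (g : G)⁻¹ =
          algebraMap F A (k g : F) * (algebraMap F A ((k (g * l) : F)⁻¹) * (ρ x ^ k (g * l) - 1)) := by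
        intro l _
        have h3 : ρ g * ρ x ^ k l * ρ (g : G)⁻¹ = ρ x ^ k (g * l) := by
          rw [← map_pow, ← map_mul, ← map_mul, ← map_pow]
          congr 1
          rw [← hk l, ← hk (g * l), Subgroup.coe_mul]
          group
        have h4 : ρ g * ρ (g : G)⁻¹ = 1 := by rw [← map_mul, mul_inv_cancel, map_one]
        have h5 : ρ g * (algebraMap F A ((k l : F)⁻¹) * (ρ x ^ k l - 1)) * ρ (g : G)⁻¹ =
            algebraMap F A ((k l : F)⁻¹) * (ρ g * ρ x ^ k l * ρ (g : G)⁻¹ - ρ g * ρ (g : G)⁻¹) := by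
          rw [← mul_assoc, ← Algebra.commutes ((k l : F)⁻¹) (ρ (g : G)), mul_assoc, mul_assoc, mul_sub, sub_mul]
          simp only [mul_sub, sub_mul, mul_assoc, mul_one, one_mul]
        rw [h5, h3, h4, ← mul_assoc, ← map_mul, hkk, mul_inv, ← mul_assoc, mul_inv_cancel₀ (hpk g), one_mul]
      rw [Finset.sum_congr rfl h2]
      exact Equiv.sum_comp (Equiv.mulLeft g) (fun l : L => algebraMap F A (k g : F) *
        (algebraMap F A ((k l : F)⁻¹) * (ρ x ^ k l - 1)))
    rw [← h1, mul_assoc, ← map_mul, inv_mul_cancel, map_one, mul_one]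
  have hYp : ∀ (g : L) (j : ℕ), ρ g * Y ^ j = (algebraMap F A ((k g : F) ^ j) * Y ^ j) * ρ g := by
    intro g j
    induction j with
    | zero => simp
    | succ j ih =>
      rw [pow_succ, ← mul_assoc, ih, mul_assoc, hYL, pow_succ, map_mul]
      have h1 := Algebra.commutes (k g : F) (Y ^ j)
      calc algebraMap F A ((k g : F) ^ j) * Y ^ j * (algebraMap F A (k g : F) * Y * ρ g)
          = algebraMap F A ((k g : F) ^ j) * (Y ^ j * algebraMap F A (k g : F)) * Y * ρ g := by
            simp only [mul_assoc]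
        _ = _ := by rw [← h1]; simp only [mul_assoc]
  have hfer : ∀ g : L, (k g : F) ^ (p - 1) = 1 := by
    intro g
    have h1 : ((k g : ZMod p)) ≠ 0 := by
      intro h
      apply hpk g
      rw [CharP.cast_eq_zero_iff F p]
      exact (ZMod.natCast_eq_zero_iff _ _).mp h
    have h2 := ZMod.pow_card_sub_one_eq_one h1
    have h3 := congrArg (ZMod.castHom (dvd_refl p) F) h2
    simpa using h3
  refine ⟨f₁ ^ (p - 1), ?_, ?_⟩
  · rw [eval_pow]; exact pow_ne_zero _ hf₁1
  · have hT : aeval (ρ x) ((X - 1) ^ (p - 1) * f₁ ^ (p - 1)) = Y ^ (p - 1) := by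
      rw [← mul_pow, map_pow]
    rw [hT]
    intro g hg
    obtain ⟨j, l, hl, rfl⟩ := hNL g hg
    have h1 := hYp ⟨l, hl⟩ (p - 1)
    rw [hfer, map_one, one_mul] at h1
    have h2 : Commute (ρ x) Y := by
      rw [hY]
      have := Commute.all (X : F[X]) ((X - 1) * f₁)
      have h3 := this.map (aeval (ρ x))
      rwa [aeval_X] at h3
    have h3 : Commute (ρ x ^ j) (Y ^ (p - 1)) := h2.pow_pow _ _
    rw [map_mul, map_pow, mul_assoc, h1, ← mul_assoc, h3.eq, mul_assoc]

/-- A polynomial in `1 + (nilpotent)` not vanishing at `1` is a unit. -/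
theorem isUnit_aeval {A F : Type*} [Field F] [Ring A] [Algebra F A] (a : A) (ha : IsNilpotent (a - 1)) (f : F[X])
    (hf : f.eval 1 ≠ 0) : IsUnit (aeval a f) := by
  obtain ⟨g, hg⟩ : (X - C 1) ∣ f - C (f.eval 1) := by
    rw [dvd_iff_isRoot]
    simp
  have h1 : aeval a f = (a - 1) * aeval a g + algebraMap F A (f.eval 1) := by
    have h2 : f = (X - C 1) * g + C (f.eval 1) := by rw [← hg]; ring
    have h3 := congrArg (aeval a) h2
    rw [map_add, map_mul, aeval_C, map_sub, aeval_X, aeval_C, map_one] at h3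
    exact h3
  rw [h1]
  have hcomm : Commute (a - 1) (aeval a g) := by
    have := (Commute.all (X - C 1 : F[X]) g).map (aeval a)
    rwa [map_sub, aeval_X, aeval_C, map_one] at this
  have hnil : IsNilpotent ((a - 1) * aeval a g) := hcomm.isNilpotent_mul_right ha
  have hu : IsUnit (algebraMap F A (f.eval 1)) := (isUnit_iff_ne_zero.mpr hf).map _
  exact hnil.isUnit_add_right_of_commute hu (Algebra.commutes _ _).symm

/-- The main inequality. -/
theorem main {G : Type*} [Group G] [Finite G] (p : ℕ) [Fact p.Prime] (P : Sylow p G) (hcyc : IsCyclic P) (n : ℕ)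
    (hn : 2 ≤ n) (hPn : Nat.card P = p ^ n)
    (hTI : ∀ Q : Sylow p G, Q ≠ P → (P : Subgroup G) ⊓ (Q : Subgroup G) = ⊥) (F : Type*) [Field F] [CharP F p]
    (V : Type*) [AddCommGroup V] [Module F V] [FiniteDimensional F V] (ρ : Representation F G V)
    (hfaith : Function.Injective ρ) (hirr : ρ.IsIrreducible) : p ^ n - (p - 1) ≤ Module.finrank F V := by
  classical
  have hp : p.Prime := Fact.out
  set N : Subgroup G := Subgroup.normalizer ((P : Subgroup G) : Set G) with hNdef
  have hPN : (P : Subgroup G) ≤ N := Subgroup.le_normalizer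
  -- a generator of P
  obtain ⟨x₀, hx₀⟩ := hcyc.exists_generator
  set x : G := (x₀ : G) with hxdef
  have hxP : x ∈ (P : Subgroup G) := x₀.2
  have hPx : (P : Subgroup G) = Subgroup.zpowers x := by
    apply le_antisymm
    · intro y hy
      obtain ⟨k, hk⟩ := Subgroup.mem_zpowers_iff.mp (hx₀ ⟨y, hy⟩)
      exact Subgroup.mem_zpowers_iff.mpr ⟨k, by rw [hxdef, ← Subgroup.coe_zpow, hk]⟩
    · rw [Subgroup.zpowers_le]; exact hxP
  have hxo : orderOf x = p ^ n := by
    rw [← hPn, ← Nat.card_zpowers, ← hPx]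
  have hmemP : ∀ y ∈ (P : Subgroup G), ∃ i : ℕ, y = x ^ i := by
    intro y hy
    rw [hPx] at hy
    obtain ⟨i, hi⟩ := (mem_powers_iff_mem_zpowers.mpr hy)
    exact ⟨i, hi.symm⟩
  -- p-elements of N lie in P
  have hpN : ∀ h ∈ N, IsPGroup p (Subgroup.zpowers h) → h ∈ (P : Subgroup G) := by
    intro h hh hph
    have h1 : IsPGroup p ((P : Subgroup G) ⊔ Subgroup.zpowers h : Subgroup G) :=
      P.isPGroup'.to_sup_of_normal_left' hph (by rw [Subgroup.zpowers_le]; exact hh)
    have h2 := P.is_maximal' h1 le_sup_left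
    rw [← h2]
    exact Subgroup.mem_sup_right (Subgroup.mem_zpowers h)
  have hfree : ∀ g : G, g ∉ N → ∀ y ∈ (P : Subgroup G), g⁻¹ * y * g ∈ N → y = 1 := by
    intro g hg y hy hyg
    have h1 : IsPGroup p (Subgroup.zpowers (g⁻¹ * y * g)) := by
      have h2 : IsPGroup p (Subgroup.zpowers y) := P.isPGroup'.to_le (by rw [Subgroup.zpowers_le]; exact hy)
      have h3 : Subgroup.zpowers (g⁻¹ * y * g) = (Subgroup.zpowers y).map (MulAut.conj g⁻¹).toMonoidHom := by
        rw [MonoidHom.map_zpowers]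
        congr 1
        simp [MulAut.conj_apply]
      rw [h3]
      exact h2.map _
    have h2 := hpN _ hyg h1
    have h3 : g • P ≠ P := by
      intro h
      apply hg
      rw [hNdef]
      exact Sylow.smul_eq_iff_mem_normalizer.mp h
    have h4 := hTI _ h3
    have h5 : y ∈ ((g • P : Sylow p G) : Subgroup G) := by
      rw [Sylow.coe_subgroup_smul, Subgroup.mem_pointwise_smul_iff_inv_smul_mem]
      rw [← map_inv, MulAut.smul_def, MulAut.conj_apply, inv_inv]
      exact h2
    have h6 : y ∈ ((P : Subgroup G) ⊓ ((g • P : Sylow p G) : Subgroup G) : Subgroup G) := ⟨hy, h5⟩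
    rw [h4] at h6
    exact h6
  -- complement
  obtain ⟨L, hLN, hL, hNL⟩ : ∃ L : Subgroup G, L ≤ N ∧ ¬ p ∣ Nat.card L ∧ ∀ g ∈ N, ∃ k : ℕ, ∃ l ∈ L, g = x ^ k * l := by
    have hnorm : ((P : Subgroup G).subgroupOf N).Normal := Subgroup.normal_in_normalizer
    have hidx : ¬ p ∣ ((P : Subgroup G).subgroupOf N).index := by
      intro h
      have h1 : (P : Subgroup G).relIndex N ∣ (P : Subgroup G).index := Subgroup.relIndex_dvd_index_of_le hPN
      exact P.not_dvd_index (h.trans h1)
    have hcop : Nat.Coprime (Nat.card ((P : Subgroup G).subgroupOf N)) ((P : Subgroup G).subgroupOf N).index := by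
      have h1 : Nat.card ((P : Subgroup G).subgroupOf N) = p ^ n := by
        rw [← hPn]
        exact Nat.card_congr (Subgroup.subgroupOfEquivOfLe hPN).toEquiv
      rw [h1]
      exact Nat.Coprime.pow_left _ ((Nat.Prime.coprime_iff_not_dvd hp).mpr hidx)
    obtain ⟨H, hH⟩ := Subgroup.exists_right_complement'_of_coprime hcop
    refine ⟨H.map N.subtype, ?_, ?_, ?_⟩
    · rintro _ ⟨y, -, rfl⟩; exact y.2
    · have h1 : Nat.card (H.map N.subtype) = Nat.card H :=
        Nat.card_congr (H.equivMapOfInjective _ N.subtype_injective).toEquiv.symm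
      rw [h1]
      have h2 := hH.card_mul
      have h3 : Nat.card H = ((P : Subgroup G).subgroupOf N).index := by
        have h4 := Subgroup.card_mul_index ((P : Subgroup G).subgroupOf N)
        rw [← h2] at h4
        exact (Nat.eq_of_mul_eq_mul_left Nat.card_pos h4).symm
      rw [h3]; exact hidx
    · intro g hg
      obtain ⟨⟨⟨a, ha⟩, ⟨b, hb⟩⟩, hab⟩ := hH.2 ⟨g, hg⟩
      obtain ⟨i, hi⟩ := hmemP a (Subgroup.mem_subgroupOf.mp ha)
      refine ⟨i, b, ⟨b, hb, rfl⟩, ?_⟩
      have h1 := congrArg Subtype.val hab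
      rw [← hi]
      exact h1.symm
  have hN : ∀ g ∈ N, ∃ i : ℕ, g * x * g⁻¹ = x ^ i := by
    intro g hg
    exact hmemP _ ((Subgroup.mem_normalizer_iff.mp hg x).mp hxP)
  obtain ⟨f, hf1, hfN⟩ := exists_poly (F := F) ρ p x n (by omega) hxo N L hN hLN hL hNL
  set a : Module.End F V := ρ x with ha
  set T : Module.End F V := aeval a ((X - 1) ^ (p - 1) * f) with hT
  letI : Fintype (P : Subgroup G) := Fintype.ofFinite _
  obtain ⟨c, φ, hc, hcφ⟩ := exists_trace ρ N (P : Subgroup G) hPN hfree T hfN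
  -- the trace
  set b : Module.End F V := ρ x⁻¹ with hb
  have hab : a * b = 1 := by rw [ha, hb, ← map_mul, mul_inv_cancel, map_one]
  have hba : b * a = 1 := by rw [ha, hb, ← map_mul, inv_mul_cancel, map_one]
  have htr : ∑ y : (P : Subgroup G), ρ y * φ * ρ (y⁻¹ : (P : Subgroup G)) = ∑ k ∈ range (p ^ n), a ^ k * φ * b ^ k := by
    rw [← hxo, ← Fin.sum_univ_eq_sum_range (fun k => a ^ k * φ * b ^ k) (orderOf x)]
    have hbij : Function.Bijective (fun i : Fin (orderOf x) => (⟨x ^ (i : ℕ), (P : Subgroup G).pow_mem hxP _⟩ : (P : Subgroup G))) := by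
      constructor
      · intro i j hij
        have h1 : x ^ (i : ℕ) = x ^ (j : ℕ) := congrArg Subtype.val hij
        exact Fin.ext (pow_injOn_Iio_orderOf i.2 j.2 h1)
      · rintro ⟨y, hy⟩
        obtain ⟨i, rfl⟩ := hmemP y hy
        refine ⟨⟨i % orderOf x, Nat.mod_lt _ (orderOf_pos x)⟩, Subtype.ext ?_⟩
        exact pow_mod_orderOf x i
    rw [← (Equiv.ofBijective _ hbij).sum_comp]
    refine Finset.sum_congr rfl fun i _ => ?_
    have h1 : (((Equiv.ofBijective _ hbij i : (P : Subgroup G)))⁻¹ : (P : Subgroup G)) = ((x⁻¹ ^ (i : ℕ) : G)) := by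
      simp [Equiv.ofBijective_apply]
    rw [h1]
    show ρ (x ^ (i : ℕ)) * φ * ρ (x⁻¹ ^ (i : ℕ)) = _
    rw [map_pow, map_pow]
  -- nilpotency index
  have hAchar : CharP (Module.End F V) p := by
    have : Nontrivial V := by
      by_contra h
      rw [not_nontrivial_iff_subsingleton] at h
      have h1 : ρ x = ρ 1 := Subsingleton.elim _ _
      have h2 := hfaith h1
      rw [h2, orderOf_one] at hxo
      have := Nat.one_lt_pow (by omega : n ≠ 0) hp.one_lt
      omega
    exact charP_of_injective_algebraMap (algebraMap F (Module.End F V)).injective p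
  have hnt : Nontrivial (Module.End F V) := by
    by_contra h
    rw [not_nontrivial_iff_subsingleton] at h
    have h1 : ρ x = ρ 1 := Subsingleton.elim _ _
    have h2 := hfaith h1
    rw [h2, orderOf_one] at hxo
    have := Nat.one_lt_pow (by omega : n ≠ 0) hp.one_lt
    omega
  have hXq : (a - 1) ^ p ^ n = 0 := by
    rw [sub_pow_char_pow_of_commute _ _ (Commute.one_right a), one_pow, ha, ← map_pow, ← hxo, pow_orderOf_eq_one,
      map_one, sub_self]
  have hnil : IsNilpotent (a - 1) := ⟨_, hXq⟩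
  have hex : ∃ m : ℕ, (a - 1) ^ m = 0 := ⟨_, hXq⟩
  set m := Nat.find hex with hm
  have hm0 : (a - 1) ^ m = 0 := Nat.find_spec hex
  have hmin : ∀ j : ℕ, (a - 1) ^ j = 0 → m ≤ j := fun j hj => Nat.find_min' hex hj
  have hmd : m ≤ Module.finrank F V := by
    apply hmin
    have h1 : LinearMap.charpoly (a - 1) = X ^ Module.finrank F V :=
      _root_.IsNilpotent.charpoly_eq_X_pow_finrank hnil
    have h2 := LinearMap.aeval_self_charpoly (a - 1)
    rw [h1, map_pow, aeval_X] at h2
    exact h2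
  have hpm : p ≤ m := by
    by_contra hlt
    push Not at hlt
    have h1 : (a - 1) ^ p = 0 := pow_eq_zero_of_le hlt.le hm0
    rw [sub_pow_char_of_commute _ (Commute.one_right a), one_pow, sub_eq_zero, ha, ← map_pow, ← map_one ρ] at h1
    have h2 := hfaith h1
    have h3 : p ^ n ∣ p := by rw [← hxo]; exact orderOf_dvd_of_pow_eq_one h2
    have h4 := Nat.le_of_dvd hp.pos h3
    have h5 : p ^ 1 < p ^ n := Nat.pow_lt_pow_right hp.one_lt (by omega)
    rw [pow_one] at h5
    exact absurd h4 (not_le.mpr h5)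
  -- the trace kills
  have hkill := pow_mul_trace_eq_zero (F := F) p n a b hab hba m (2 * m - p ^ n) hm0 (by omega) φ
  rw [← htr] at hkill
  have hψ : ∑ y : (P : Subgroup G), ρ y * φ * ρ (y⁻¹ : (P : Subgroup G)) = c - T := by rw [hcφ]; abel
  rw [hψ] at hkill
  set j := 2 * m - p ^ n with hj
  have hTfac : T = (a - 1) ^ (p - 1) * aeval a f := by
    rw [hT, map_mul, map_pow, map_sub, aeval_X, map_one]
  have hU : IsUnit (aeval a f) := isUnit_aeval a hnil f hf1
  -- Schur
  have hschur : c = 0 ∨ IsUnit c := by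
    have hcv : ∀ (g : G) (v : V), c (ρ g v) = ρ g (c v) := by
      intro g v
      have h1 := LinearMap.congr_fun (hc g) v
      rw [Module.End.mul_apply, Module.End.mul_apply] at h1
      exact h1.symm
    have hcI := Representation.IsIrreducible.bijective_or_eq_zero
      (f := LinearMap.intertwiningMap_of_isIntertwiningMap ρ ρ c hcv)
    rcases hcI with h | h
    · right
      exact (Module.End.isUnit_iff _).mpr h
    · left
      apply LinearMap.ext
      intro v
      exact congrArg (fun f : Representation.IntertwiningMap ρ ρ => f v) h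
  rcases hschur with h0 | hu
  · rw [h0, zero_sub, mul_neg, neg_eq_zero, hTfac, ← mul_assoc, ← pow_add] at hkill
    have h1 : (a - 1) ^ (j + (p - 1)) = 0 := by
      obtain ⟨u, hu⟩ := hU
      rw [← hu] at hkill
      have := congrArg (· * (↑u⁻¹ : Module.End F V)) hkill
      simpa [mul_assoc] using this
    have h2 := hmin _ h1
    have h3 : 2 ≤ p := hp.two_le
    clear_value m
    generalize p ^ n = q at *
    omega
  · have h1 : IsUnit (c - T) := by
      have hTnil : IsNilpotent T := by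
        rw [hTfac]
        have h2 : Commute ((a - 1) ^ (p - 1)) (aeval a f) := by
          have := (Commute.all ((X - 1 : F[X]) ^ (p - 1)) f).map (aeval a)
          rwa [map_pow, map_sub, aeval_X, map_one] at this
        apply h2.isNilpotent_mul_right
        exact ⟨p ^ n, by rw [← pow_mul, mul_comm, pow_mul, hXq, zero_pow (by have := hp.two_le; omega)]⟩
      have hcT : Commute c T := by
        have h2 : Commute c a := (hc x).symm
        rw [hT]
        have h3 : ∀ g : F[X], Commute c (aeval a g) := by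
          intro g
          induction g using Polynomial.induction_on' with
          | add p q hp hq => rw [map_add]; exact hp.add_right hq
          | monomial i r =>
            rw [aeval_monomial]
            exact (show Commute c (algebraMap F _ r) from (Algebra.commutes r c).symm).mul_right (h2.pow_right i)
        exact h3 _
      rw [sub_eq_add_neg, add_comm]
      exact hTnil.neg.isUnit_add_right_of_commute hu hcT.neg_right.symm
    have h2 : (a - 1) ^ j = 0 := by
      obtain ⟨u, hu⟩ := h1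
      rw [← hu] at hkill
      have := congrArg (· * (↑u⁻¹ : Module.End F V)) hkill
      simpa [mul_assoc] using this
    have h3 := hmin _ h2
    have h4 : 2 ≤ p := hp.two_le
    clear_value m
    generalize p ^ n = q at *
    omega

end Cfsg.Agent.H395.CyclicTI
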