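import Cfsg.Agent.H395.SixMTwoTwo_m3
import Cfsg.Prelude.Def_G2
import Cfsg.Agent.Prune
set_option linter.all false
prune_inst 0x7f00000000000000000000000000000000000000000000000000000000000000000000000000000000000000000000000000000000000000000000000000000000000000000000000000000000000000003fffffffffffffffffffffffffffbeffbdffffffff
open scoped Cfsg.Agent.FastGrp

/-!
# The group `G₂(3)`
-/

set_option autoImplicit false

namespace Cfsg.Agent.H395.Six.GTwo

open Cfsg.Lie Matrix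

def mZ : Matrix (Fin 8) (Fin 8) (ZMod 3) := diagonal ![1, -1, -1, 1, -1, -1, 1, 1]

def mA : Matrix (Fin 8) (Fin 8) (ZMod 3) :=
  !![1, 0, 0, 0, 0, 0, 0, 0;
     0, 1, 1, 0, 0, 0, 0, 0;
     0, 0, 1, 0, 0, 0, 0, 0;
     0, 0, 0, 1, 0, 0, 0, 0;
     0, 0, 0, 0, 1, 0, 0, 0;
     0, 0, 0, 0, -1, 1, 0, 0;
     0, 0, 0, 0, 0, 0, 1, 0;
     0, 0, 0, 0, 0, 0, 0, 1]

def mB : Matrix (Fin 8) (Fin 8) (ZMod 3) :=
  !![1, 0, 0, 0, 0, 0, 1, 0;
     0, 1, 0, 0, 0, 0, 0, 0;
     0, 0, 1, 0, 0, 0, 0, 0;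
     -1, 0, 0, 1, 0, 0, -1, 1;
     0, 0, 1, 0, 1, 0, 0, 0;
     0, -1, 0, 0, 0, 1, 0, 0;
     0, 0, 0, 0, 0, 0, 1, 0;
     0, 0, 0, 0, 0, 0, -1, 1]

theorem zz : mZ * mZ = 1 := by decide +kernel
theorem aa : mA * (mA * mA) = 1 := by decide +kernel
theorem bb : mB * (mB * mB) = 1 := by decide +kernel
theorem aa' : (mA * mA) * mA = 1 := by decide +kernel
theorem bb' : (mB * mB) * mB = 1 := by decide +kernel
theorem ab : mA * mB = mB * mA := by decide +kernel
theorem az : mA * mZ = mZ * mA := by decide +kernel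
theorem bz : mB * mZ = mZ * mB := by decide +kernel
theorem z1 : mZ ≠ 1 := by decide +kernel
theorem a1 : mA ≠ 1 := by decide +kernel
theorem b1 : mB ≠ 1 := by decide +kernel
theorem ba : mB ≠ mA := by decide +kernel
theorem baa : mB ≠ mA * mA := by decide +kernel

theorem mZ_vec (x : Fin 8 → ZMod 3) : mZ *ᵥ x = ![x 0, -x 1, -x 2, x 3, -x 4, -x 5, x 6, x 7] := by
  ext i
  rw [mZ, mulVec_diagonal]
  (revert i; simp only [_root_.Fin.forall_fin_succ, _root_.Nat.succ_eq_add_one, Nat.reduceAdd, Fin.isValue, _root_.Matrix.cons_val_zero, _root_.one_mul, _root_.Matrix.cons_val_succ, _root_.Fin.succ_zero_eq_one, _root_.neg_mul, _root_.Fin.succ_one_eq_two, Fin.reduceSucc, _root_.Matrix.cons_val_fin_one, _root_.IsEmpty.forall_iff, _root_.and_self])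

theorem mA_vec (x : Fin 8 → ZMod 3) : mA *ᵥ x = ![x 0, x 1 + x 2, x 2, x 3, x 4, -x 4 + x 5, x 6, x 7] := by
  ext i
  (revert i; simp only [mA, Matrix.mulVec, dotProduct, Fin.sum_univ_eight, _root_.Fin.forall_fin_succ, _root_.Matrix.of_apply, _root_.Matrix.cons_val', _root_.Matrix.cons_val_fin_one, Fin.isValue, _root_.Matrix.cons_val_zero, _root_.Matrix.cons_val_one, _root_.Matrix.cons_val, _root_.Nat.succ_eq_add_one, Nat.reduceAdd, _root_.one_mul, _root_.MulZeroClass.zero_mul, _root_.add_zero, _root_.Matrix.cons_val_succ, _root_.zero_add, _root_.neg_mul, _root_.implies_true, _root_.and_self])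

theorem mB_vec (x : Fin 8 → ZMod 3) : mB *ᵥ x = ![x 0 + x 6, x 1, x 2, -x 0 + x 3 - x 6 + x 7, x 2 + x 4, -x 1 + x 5,
    x 6, -x 6 + x 7] := by
  ext i
  (revert i; simp only [mB, Matrix.mulVec, dotProduct, Fin.sum_univ_eight, _root_.Fin.forall_fin_succ, _root_.Matrix.of_apply, _root_.Matrix.cons_val', _root_.Matrix.cons_val_fin_one, Fin.isValue, _root_.Matrix.cons_val_zero, _root_.Matrix.cons_val_one, _root_.Matrix.cons_val, _root_.Nat.succ_eq_add_one, Nat.reduceAdd, _root_.one_mul, _root_.MulZeroClass.zero_mul, _root_.add_zero, _root_.Matrix.cons_val_succ, _root_.zero_add, _root_.neg_mul, _root_.add_left_inj, _root_.implies_true, _root_.and_self, _root_.and_true, _root_.true_and]) <;> (repeat' with_reducible apply And.intro) <;> ring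

def gZ : GL (Fin 8) (ZMod 3) := ⟨mZ, mZ, zz, zz⟩
def gA : GL (Fin 8) (ZMod 3) := ⟨mA, mA * mA, aa, aa'⟩
def gB : GL (Fin 8) (ZMod 3) := ⟨mB, mB * mB, bb, bb'⟩

theorem gZ_mem : gZ ∈ G2 (ZMod 3) := by
  intro x y
  show mZ *ᵥ zornMul x y = zornMul (mZ *ᵥ x) (mZ *ᵥ y)
  rw [mZ_vec, mZ_vec, mZ_vec]
  ext i
  (revert i; simp only [zornMul, dot3, cross3, _root_.Fin.forall_fin_succ, _root_.Nat.succ_eq_add_one, Nat.reduceAdd, Fin.isValue, _root_.Matrix.cons_val_zero, _root_.Matrix.cons_val_one, _root_.Matrix.cons_val, _root_.Matrix.smul_cons, _root_.smul_eq_mul, _root_.Matrix.smul_empty, _root_.Matrix.add_cons, _root_.Matrix.head_cons, _root_.Matrix.tail_cons, _root_.Matrix.empty_add_empty, _root_.Pi.sub_apply, _root_.Pi.add_apply, _root_.neg_sub, _root_.neg_add_rev, _root_.mul_neg, _root_.neg_mul, _root_.neg_neg, _root_.sub_neg_eq_add, _root_.Matrix.cons_val_succ, _root_.implies_true, _root_.and_true, _root_.true_and]) <;> (repeat' with_reducible apply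 And.intro) <;> ring

theorem gA_mem : gA ∈ G2 (ZMod 3) := by
  intro x y
  show mA *ᵥ zornMul x y = zornMul (mA *ᵥ x) (mA *ᵥ y)
  rw [mA_vec, mA_vec, mA_vec]
  ext i
  (revert i; simp only [zornMul, dot3, cross3, _root_.Fin.forall_fin_succ, _root_.Nat.succ_eq_add_one, Nat.reduceAdd, Fin.isValue, _root_.Matrix.cons_val_zero, _root_.Matrix.cons_val_one, _root_.Matrix.cons_val, _root_.Matrix.smul_cons, _root_.smul_eq_mul, _root_.Matrix.smul_empty, _root_.Matrix.add_cons, _root_.Matrix.head_cons, _root_.Matrix.tail_cons, _root_.Matrix.empty_add_empty, _root_.Pi.sub_apply, _root_.Pi.add_apply, _root_.neg_add_rev, _root_.neg_sub, _root_.add_right_inj, _root_.add_left_inj, _root_.Matrix.cons_val_succ, _root_.sub_right_inj, _root_.Matrix.cons_val_fin_one, _root_.forall_const, _root_.true_and]) <;> (repeat' with_reducible apply And.intro) <;> ring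

theorem gB_mem : gB ∈ G2 (ZMod 3) := by
  intro x y
  show mB *ᵥ zornMul x y = zornMul (mB *ᵥ x) (mB *ᵥ y)
  rw [mB_vec, mB_vec, mB_vec]
  ext i
  (revert i; simp only [zornMul, dot3, cross3, _root_.Fin.forall_fin_succ, _root_.Nat.succ_eq_add_one, Nat.reduceAdd, Fin.isValue, _root_.Matrix.cons_val_zero, _root_.Matrix.cons_val_one, _root_.Matrix.cons_val, _root_.Matrix.smul_cons, _root_.smul_eq_mul, _root_.Matrix.smul_empty, _root_.Matrix.add_cons, _root_.Matrix.head_cons, _root_.Matrix.tail_cons, _root_.Matrix.empty_add_empty, _root_.Pi.sub_apply, _root_.Pi.add_apply, _root_.neg_add_rev, _root_.neg_sub, _root_.Matrix.cons_val_succ, _root_.add_left_inj, _root_.Matrix.cons_val_fin_one, _root_.forall_const]) <;> (repeat' with_reducible apply And.intro) <;> ring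

theorem ext_val {g h : G2 (ZMod 3)} (e : ((g : GL (Fin 8) (ZMod 3)) : Matrix (Fin 8) (Fin 8) (ZMod 3)) =
    (h : GL (Fin 8) (ZMod 3))) : g = h := Subtype.ext (Units.ext e)

theorem val_congr {g h : G2 (ZMod 3)} (e : g = h) : ((g : GL (Fin 8) (ZMod 3)) : Matrix (Fin 8) (Fin 8) (ZMod 3)) =
    (h : GL (Fin 8) (ZMod 3)) := by rw [e]

theorem g2 (S : SHyp (G2 (ZMod 3))) : False := by
  refine S.not_nine (i := ⟨gZ, gZ_mem⟩) (a := ⟨gA, gA_mem⟩) (b := ⟨gB, gB_mem⟩) ?_ ?_ ?_ ?_ ?_ ?_ ?_ ?_ ?_ ?_ ?_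
  · exact ext_val zz
  · exact fun h => z1 (val_congr h)
  · exact ext_val az
  · exact ext_val bz
  · rw [pow_succ, pow_two]
    exact ext_val aa'
  · rw [pow_succ, pow_two]
    exact ext_val bb'
  · exact ext_val ab
  · exact fun h => a1 (val_congr h)
  · exact fun h => b1 (val_congr h)
  · exact fun h => ba (val_congr h)
  · intro h
    rw [pow_two] at h
    exact baa (val_congr h)

end Cfsg.Agent.H395.Six.GTwo

private theorem dce_8e8f02ae738f : _root_.True := by
  try have : _root_.True := by simp only [_root_.Cfsg.Agent.H395.Six.GTwo.mB.eq_1]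
  try have : _root_.True := by simp only [_root_.Cfsg.Agent.H395.Six.GTwo.mA.eq_1]
  try have : _root_.True := by simp only [_root_.Cfsg.Lie.zornMul.eq_1]
  try have : _root_.True := by simp only [_root_.Cfsg.Lie.cross3.eq_1]
  try have : _root_.True := by simp only [_root_.Cfsg.Lie.dot3.eq_1]
  try have : _root_.True := by simp only [_root_.Cfsg.Agent.H395.Six.GTwo.mZ.eq_1]
  exact _root_.True.intro
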