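import Cfsg.Agent.H395.SixMTwoTwo_m3
import Cfsg.Agent.H341.ThreeElts2
import Cfsg.Agent.ClassicalGeometry.PSL2ElemOrder
import Cfsg.Agent.Prune
set_option linter.all false
prune_inst 0x7f00000000000000000000000000000000000000000000000000000000000000000000000000000000000000000000000000000000000000000000000000000000000000000000000000000000000000003fffffffffffffffffffffffffffbeffbdffffffff
open scoped Cfsg.Agent.FastGrp

/-!
# The groups `PSL₂(q)`
-/

set_option autoImplicit false

namespace Cfsg.Agent.H395.Six.Psl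

open Subgroup Matrix Cfsg.Agent.ClassicalGeometry

variable {F : Type} [Field F] [Fintype F]

/-- orders of elements prime to the characteristic; `q` odd -/
theorem six_dvd (S : SHyp (ProjectiveSpecialLinearGroup (Fin 2) F)) :
    (12 ∣ Fintype.card F + 1 ∨ 12 ∣ Fintype.card F - 1) ∧ ¬ 3 ∣ Fintype.card F ∧ Fintype.card F % 2 = 1 := by
  obtain ⟨t, ht⟩ := S.exists_six
  obtain ⟨p, hp⟩ := CharP.exists F
  obtain ⟨n, hpp, hn⟩ := FiniteField.card F p
  have hfp : Fact p.Prime := ⟨hpp⟩
  obtain ⟨A, rfl⟩ := PSLTorus.pr_surjective F t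
  have hq1 : 1 < Fintype.card F := Fintype.one_lt_card
  have hpq : p ∣ Fintype.card F := by
    rw [hn]
    exact dvd_pow_self p n.pos.ne'
  have hcop : ∀ r : ℕ, r.Prime → r ∣ Fintype.card F → r = p := by
    intro r hr h
    rw [hn] at h
    exact (Nat.prime_dvd_prime_iff_eq hr hpp).1 (hr.dvd_of_dvd_pow h)
  have hp2 : p ≠ 2 := by
    rintro rfl
    have h3 : ¬ 3 ∣ Fintype.card F := fun h => by
      have := hcop 3 Nat.prime_three h
      omega
    rcases SL2Order.pow_cases rfl 2 A with h | h | h
    · have h6 : orderOf (PSLTorus.pr F A) ∣ Fintype.card F - 1 := by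
        apply orderOf_dvd_of_pow_eq_one
        rw [← map_pow, h, map_one]
      rw [ht] at h6
      omega
    · have h6 : orderOf (PSLTorus.pr F A) ∣ Fintype.card F + 1 := by
        apply orderOf_dvd_of_pow_eq_one
        rw [← map_pow, h, map_one]
      rw [ht] at h6
      omega
    · have h6 : orderOf (PSLTorus.pr F A) ∣ 2 * 2 := by
        apply orderOf_dvd_of_pow_eq_one
        rw [← map_pow, h, map_one]
      rw [ht] at h6
      omega
  have h2 : (2 : F) ≠ 0 := by
    intro h
    apply hp2
    have h5 : ((2 : ℕ) : F) = 0 := by exact_mod_cast h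
    exact (Nat.prime_dvd_prime_iff_eq hpp Nat.prime_two).1 ((CharP.cast_eq_zero_iff F p 2).1 h5)
  have hodd : Fintype.card F % 2 = 1 := by
    have := (PSLTorus.two_ne_zero_iff_odd F).1 h2
    rwa [Nat.odd_iff] at this
  have hp3 : p ≠ 3 := by
    rintro rfl
    rcases SL2Order.pow_cases rfl 3 A with h | h | h
    · have h6 : orderOf (PSLTorus.pr F A) ∣ Fintype.card F - 1 := by
        apply orderOf_dvd_of_pow_eq_one
        rw [← map_pow, h, map_one]
      rw [ht] at h6
      omega
    · have h6 : orderOf (PSLTorus.pr F A) ∣ Fintype.card F + 1 := by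
        apply orderOf_dvd_of_pow_eq_one
        rw [← map_pow, h, map_one]
      rw [ht] at h6
      omega
    · have h6 : orderOf (PSLTorus.pr F A) ∣ 3 := by
        apply orderOf_dvd_of_pow_eq_one
        rw [← map_pow, PSLTorus.pr_eq_one_iff]
        apply PSL2ElemOrder.eq_one_or_of_sq h2
        rw [← pow_add, ← h]
      rw [ht] at h6
      omega
  have h3 : ¬ 3 ∣ Fintype.card F := fun h => hp3 (hcop 3 Nat.prime_three h).symm
  refine ⟨?_, h3, hodd⟩
  have hp6 : ¬ p ∣ orderOf (PSLTorus.pr F A) := by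
    rw [ht]
    intro h
    rw [show 6 = 2 * 3 from rfl, hpp.dvd_mul] at h
    rcases h with h | h
    · exact hp2 ((Nat.prime_dvd_prime_iff_eq hpp Nat.prime_two).1 h)
    · exact hp3 ((Nat.prime_dvd_prime_iff_eq hpp Nat.prime_three).1 h)
  have hgcd : Nat.gcd 2 (Fintype.card F - 1) = 2 := by
    apply Nat.gcd_eq_left
    omega
  rcases PSL2ElemOrder.orderOf_dvd rfl p _ hp6 with h | h <;> rw [ht, hgcd] at h
  · left; omega
  · right; omega

/-- **`PSL₂(q)`** -/
theorem psl2 (S : SHyp (ProjectiveSpecialLinearGroup (Fin 2) F)) : Fintype.card F = 11 ∨ Fintype.card F = 13 := by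
  have hfin := H341.ThreeElts.finite_psl (F := F) (n := 2)
  obtain ⟨h12, h3, hodd⟩ := six_dvd S
  have hq1 : 1 < Fintype.card F := Fintype.one_lt_card
  obtain ⟨h, hh⟩ := H341.ThreeElts.psl2_elt h3
  have h6 : 6 ∣ orderOf h := by
    rcases hh with ⟨ha, hb⟩ | ⟨ha, hb⟩
    · have : 12 ∣ Fintype.card F - 1 := by omega
      have := this.trans hb
      omega
    · have : 12 ∣ Fintype.card F + 1 := by omega
      have := this.trans hb
      omega
  have hpos := orderOf_pos h
  have h2' := H341.ThreeElts.exists_orderOf (n := 2) hpos.ne' ((by norm_num : 2 ∣ 6).trans h6)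
  have h3' := H341.ThreeElts.exists_orderOf (n := 3) hpos.ne' ((by norm_num : 3 ∣ 6).trans h6)
  have key := S.pow_six' (i := h ^ (orderOf h / 2)) (y := h ^ (orderOf h / 3)) (w := h)
    (by rw [← pow_two]; exact orderOf_dvd_iff_pow_eq_one.1 (by rw [h2']))
    (fun h => by rw [h, orderOf_one] at h2'; omega)
    (orderOf_dvd_iff_pow_eq_one.1 (by rw [h3']))
    (fun h => by rw [h, orderOf_one] at h3'; omega)
    ((Commute.refl h).pow_pow _ _) ((Commute.refl h).pow_right _) ((Commute.refl h).pow_right _)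
  have h7 : orderOf h = 6 := Nat.dvd_antisymm (orderOf_dvd_of_pow_eq_one key) h6
  rw [h7] at hh
  rcases hh with ⟨ha, hb⟩ | ⟨ha, hb⟩
  · right
    have h8 : 12 ∣ Fintype.card F - 1 := by omega
    have := Nat.le_of_dvd (by norm_num) hb
    omega
  · left
    have h8 : 12 ∣ Fintype.card F + 1 := by omega
    have := Nat.le_of_dvd (by norm_num) hb
    omega

end Cfsg.Agent.H395.Six.Psl
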