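import Cfsg.Agent.H395.SixMTwoTwo_m3
import Cfsg.Agent.H341.ThreeElts2
import Cfsg.Agent.Prune
set_option linter.all false
prune_inst 0x7f00000000000000000000000000000000000000000000000000000000000000000000000000000000000000000000000000000000000000000000000000000000000000000000000000000000000000003fffffffffffffffffffffffffffbeffbdffffffff
open scoped Cfsg.Agent.FastGrp

/-!
# The group `PSp₄(3)`
-/

set_option autoImplicit false

namespace Cfsg.Agent.H395.Six.Sp

open Matrix Cfsg Cfsg.Agent.H341.ThreeElts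

instance : Fact (Nat.Prime 3) := ⟨Nat.prime_three⟩

def uu : Matrix.SpecialLinearGroup (Fin 2) (ZMod 3) := ⟨!![1, 1; 0, 1], by decide⟩

theorem uu_cube : uu * uu * uu = 1 := by
  apply Subtype.ext
  decide +kernel

theorem uu_ne : uu ≠ 1 := by
  intro h
  have h2 := congrArg (fun B : Matrix.SpecialLinearGroup (Fin 2) (ZMod 3) => B.1 0 1) h
  revert h2
  decide +kernel

theorem uu_ne' : uu.1 ≠ -1 := by
  intro h
  have h2 := congrFun (congrFun h 0) 1
  revert h2
  decide +kernel

theorem neg_ne : (-1 : Matrix.SpecialLinearGroup (Fin 2) (ZMod 3)) ≠ 1 := by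
  intro h
  have h2 := congrArg (fun B : Matrix.SpecialLinearGroup (Fin 2) (ZMod 3) => B.1 0 0) h
  revert h2
  decide +kernel

theorem psp4 (S : SHyp (PSp 2 (ZMod 3))) : False := by
  have hfin : Finite (PSp 2 (ZMod 3)) := inferInstance
  have hne : ∀ v : Matrix.SpecialLinearGroup (Fin 2) (ZMod 3), spHom (ZMod 3) (v, uu) ≠ 1 := by
    intro v h
    rcases spHom_eq_one h with h | h
    · exact uu_ne h.2
    · exact uu_ne' h.2
  have hc3 : uu ^ 3 = 1 := by rw [pow_succ, pow_two, uu_cube]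
  refine S.not_nine (i := spHom (ZMod 3) (-1, 1)) (a := spHom (ZMod 3) (uu, 1)) (b := spHom (ZMod 3) (1, uu))
    ?_ ?_ ?_ ?_ ?_ ?_ ?_ ?_ ?_ ?_ ?_
  · rw [← map_mul, Prod.mk_mul_mk, neg_mul_neg, one_mul]
    exact map_one _
  · intro h
    exact neg_ne (spHom_inj_left h)
  · rw [← map_mul, ← map_mul, Prod.mk_mul_mk, Prod.mk_mul_mk, mul_neg, neg_mul, mul_one uu, one_mul uu]
  · rw [← map_mul, ← map_mul, Prod.mk_mul_mk, Prod.mk_mul_mk, one_mul, mul_one, one_mul, mul_one]
  · rw [← map_pow, Prod.pow_mk, hc3, one_pow]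
    exact map_one _
  · rw [← map_pow, Prod.pow_mk, hc3, one_pow]
    exact map_one _
  · exact spHom_comm _ _
  · intro h
    exact uu_ne (spHom_inj_left h)
  · exact hne 1
  · intro h
    rw [← inv_mul_eq_one, ← map_inv, ← map_mul, Prod.inv_mk, Prod.mk_mul_mk] at h
    have h1 : spHom (ZMod 3) (uu, uu⁻¹) = 1 := by
      rw [inv_one, one_mul, mul_one] at h
      exact h
    rcases spHom_eq_one h1 with h | h
    · exact uu_ne h.1
    · exact uu_ne' h.1
  · intro h
    rw [← map_pow, Prod.pow_mk, one_pow] at h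
    have h1 : spHom (ZMod 3) (uu, uu) = 1 := by
      have h2 : spHom (ZMod 3) (uu, 1) * spHom (ZMod 3) (1, uu) = spHom (ZMod 3) (uu, 1) * spHom (ZMod 3) (uu ^ 2, 1) := by
        rw [h]
      rw [← map_mul, ← map_mul, Prod.mk_mul_mk, Prod.mk_mul_mk, one_mul, mul_one, mul_one, ← pow_succ', hc3] at h2
      rw [h2]
      exact map_one _
    rcases spHom_eq_one h1 with h | h
    · exact uu_ne h.1
    · exact uu_ne' h.1

end Cfsg.Agent.H395.Six.Sp
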