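import Cfsg.Agent.H395.SixMTwoTwo_m3
import Cfsg.Agent.H341.ThreeElts2
import Cfsg.Agent.Prune
set_option linter.all false
prune_inst 0x7fffbdfffffffffffffffe7faefffffdffbf7fffffdff9cbffea6bffafff7b9acfcdfbef8febf3ff1effea9e10fc7bd3fffffefffa6ffe7ffffdfff49ffbffdfffffb508719c9cb40fbc6fff93f07f8e7f3fffffffffffffffffffffffffffbeffffffffffff
open scoped Cfsg.Agent.FastGrp

/-!
# The groups `PSU₄(2)`, `PSU₅(2)`, `PSU₃(3)`, `PSU₄(3)`, `PSp₄(3)`
-/

set_option autoImplicit false

namespace Cfsg.Agent.H395.Six.Unit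

open Subgroup Matrix Cfsg
open Cfsg.Agent.LieClassical.HermBasic Cfsg.Agent.LieClassical.SUBasic Cfsg.Agent.ClassicalGeometry.UnitTransv

variable {F : Type} [Field F] [Fintype F] {q n : ℕ}

/-- equality in `PSU` -/
theorem mk_eq (hF : Fintype.card F = q ^ 2) (hn : 3 ≤ n) {A B : SU n F q}
    (h : (A : PSU n F q) = B) : ∃ r : F, ((B : Matrix.SpecialLinearGroup (Fin n) F) : Matrix (Fin n) (Fin n) F) =
      r • ((A : Matrix.SpecialLinearGroup (Fin n) F) : Matrix (Fin n) (Fin n) F) := by
  have h1 := QuotientGroup.eq.1 h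
  obtain ⟨r, h2, h3, h4⟩ := (mem_center_SU_iff hF hn _).1 h1
  refine ⟨r, ?_⟩
  have h5 : B = A * suScalar q r h2 h3 := by rw [← h4, mul_inv_cancel_left]
  rw [h5]
  show ((A : Matrix.SpecialLinearGroup (Fin n) F) : Matrix (Fin n) (Fin n) F) *
    (((suScalar q r h2 h3 : SU n F q) : Matrix.SpecialLinearGroup (Fin n) F) : Matrix (Fin n) (Fin n) F) = _
  rw [coe_suScalar, ← smul_one_eq_diagonal, Matrix.mul_smul, mul_one]

theorem ext_mt {A B : SU n F q} (h : ((A : Matrix.SpecialLinearGroup (Fin n) F) : Matrix (Fin n) (Fin n) F) =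
    ((B : Matrix.SpecialLinearGroup (Fin n) F) : Matrix (Fin n) (Fin n) F)) : A = B :=
  Subtype.ext (Subtype.ext h)

theorem mt_mul (A B : SU n F q) : (((A * B : SU n F q) : Matrix.SpecialLinearGroup (Fin n) F) : Matrix (Fin n) (Fin n) F) =
    ((A : Matrix.SpecialLinearGroup (Fin n) F) : Matrix (Fin n) (Fin n) F) *
    ((B : Matrix.SpecialLinearGroup (Fin n) F) : Matrix (Fin n) (Fin n) F) := rfl

theorem mt_one : (((1 : SU n F q) : Matrix.SpecialLinearGroup (Fin n) F) : Matrix (Fin n) (Fin n) F) = 1 := rfl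

theorem mt_diag (a : Fin n → F) (hd : ∏ i, a i = 1) (ha : ∀ i, a i ^ (q + 1) = 1) :
    (((suDiag q a hd ha : SU n F q) : Matrix.SpecialLinearGroup (Fin n) F) : Matrix (Fin n) (Fin n) F) =
      Matrix.diagonal a := rfl

/-- a cube root of unity in the field with four elements -/
theorem exists_omega (hF : Fintype.card F = 4) : ∃ w : F, w ^ 3 = 1 ∧ w ≠ 1 := by
  obtain ⟨g, hg⟩ := IsCyclic.exists_generator (α := Fˣ)
  have ho : orderOf g = 3 := by
    rw [orderOf_eq_card_of_forall_mem_zpowers hg, Nat.card_units, Nat.card_eq_fintype_card, hF]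
  refine ⟨g, ?_, ?_⟩
  · rw [← Units.val_pow_eq_pow_val, ← ho, pow_orderOf_eq_one, Units.val_one]
  · intro h
    have : g = 1 := Units.ext h
    rw [this, orderOf_one] at ho
    omega

theorem two_eq_zero (hF : Fintype.card F = 4) : (2 : F) = 0 := H341.ThreeElts.two_eq_zero hF

/-- the diagonal with entries `ω, ω, ω, 1` -/
def dA (w : F) : Fin 4 → F := ![w, w, w, 1]
def dB (w : F) : Fin 4 → F := ![w, w, 1, w]
def uF : Fin 4 → F := ![1, 1, 0, 0]

theorem psu4_two (hF : Fintype.card F = 4) (S : SHyp (PSU 4 F 2)) : False := by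
  have hF' : Fintype.card F = 2 ^ 2 := hF.trans (by norm_num)
  have h2 := two_eq_zero hF
  obtain ⟨w, hw, hw1⟩ := exists_omega hF
  have hw0 : w ≠ 0 := fun h => by rw [h] at hw; simp at hw
  have hfin : Finite (SU 4 F 2) := inferInstance
  have hprodA : ∏ i, dA w i = 1 := by
    rw [Fin.prod_univ_four]
    simp only [dA, cons_val_zero, cons_val_one, cons_val_two, cons_val_three, tail_cons, head_cons, mul_one]
    rw [← hw]
    ring
  have hprodB : ∏ i, dB w i = 1 := by
    rw [Fin.prod_univ_four]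
    simp only [dB, cons_val_zero, cons_val_one, cons_val_two, cons_val_three, tail_cons, head_cons, mul_one]
    rw [← hw]
    ring
  have hnA : ∀ i, dA w i ^ (2 + 1) = 1 := by
    intro i
    fin_cases i <;> simp [dA, hw]
  have hnB : ∀ i, dB w i ^ (2 + 1) = 1 := by
    intro i
    fin_cases i <;> simp [dB, hw]
  have huu : hermForm 4 F 2 uF uF = 0 := by
    rw [hermForm_apply, Fin.sum_univ_four]
    simp only [uF, _root_.Fin.isValue, _root_.Matrix.cons_val_zero, _root_.one_pow, _root_.mul_one, _root_.Matrix.cons_val_one, _root_.Matrix.cons_val, _root_.ne_eq, _root_.OfNat.ofNat_ne_zero, _root_.not_false_eq_true, _root_.zero_pow, _root_.MulZeroClass.mul_zero, _root_.add_zero]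
    rw [one_add_one_eq_two, h2]
  have h1q : (1 : F) + 1 ^ 2 = 0 := by rw [one_pow, one_add_one_eq_two, h2]
  have hT : (((utv hF' uF 1 huu h1q : SU 4 F 2) : Matrix.SpecialLinearGroup (Fin 4) F) : Matrix (Fin 4) (Fin 4) F) =
      !![0, 1, 0, 0; 1, 0, 0, 0; 0, 0, 1, 0; 0, 0, 0, 1] := by
    show 1 + (1 : F) • vecMulVec uF (fun j => uF j ^ 2) = _
    have h3 : vecMulVec (uF : Fin 4 → F) (fun j => uF j ^ 2) =
        !![1, 1, 0, 0; 1, 1, 0, 0; 0, 0, 0, 0; 0, 0, 0, 0] := by
      ext i j
      (revert i j; simp only [uF, vecMulVec_apply, _root_.Fin.forall_fin_succ, _root_.Matrix.of_apply, _root_.Matrix.cons_val', _root_.Matrix.cons_val_fin_one, Fin.isValue, _root_.Matrix.cons_val_zero, _root_.one_pow, _root_.mul_one, _root_.Matrix.cons_val_succ, _root_.ne_eq, _root_.OfNat.ofNat_ne_zero, _root_.not_false_eq_true, _root_.zero_pow, _root_.MulZeroClass.mul_zero, _root_.forall_const, _root_.and_self, _root_.and_self_left, _root_.implies_true])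
    rw [h3, one_smul]
    ext i j
    (revert i j; simp only [one_add_one_eq_two, h2, _root_.Fin.forall_fin_succ, _root_.Matrix.add_apply, _root_.Matrix.of_apply, _root_.Matrix.cons_val', _root_.Matrix.cons_val_fin_one, Fin.isValue, _root_.Matrix.cons_val_zero, _root_.Matrix.cons_val_succ, _root_.IsEmpty.forall_iff, _root_.and_true, _root_.Matrix.one_apply_eq, Nat.reduceAdd, _root_.Fin.succ_zero_eq_one, _root_.ne_eq, _root_.zero_ne_one, _root_.not_false_eq_true, _root_.Matrix.one_apply_ne, _root_.zero_add, _root_.Fin.succ_one_eq_two, Fin.reduceEq, _root_.add_zero, Fin.reduceSucc, _root_.and_self, _root_.Fin.succ_ne_zero, _root_.true_and, _root_.add_eq_right])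
  have hcomm : ∀ (d : Fin 4 → F) (hd : ∏ i, d i = 1) (hn : ∀ i, d i ^ (2 + 1) = 1), d 0 = d 1 →
      suDiag 2 d hd hn * utv hF' uF 1 huu h1q = utv hF' uF 1 huu h1q * suDiag 2 d hd hn := by
    intro d hd hn h01
    apply ext_mt
    rw [mt_mul, mt_mul, mt_diag, hT]
    ext i j
    (revert i j; simp only [Matrix.diagonal_mul, Matrix.mul_diagonal, h01, _root_.Fin.forall_fin_succ, _root_.Matrix.of_apply, _root_.Matrix.cons_val', _root_.Matrix.cons_val_fin_one, Fin.isValue, _root_.Matrix.cons_val_zero, _root_.Matrix.cons_val_succ, _root_.Fin.succ_zero_eq_one, _root_.Fin.succ_one_eq_two, Fin.reduceSucc, _root_.IsEmpty.forall_iff, _root_.and_true, _root_.MulZeroClass.mul_zero, _root_.MulZeroClass.zero_mul, _root_.mul_one, _root_.one_mul, _root_.and_self, _root_.and_self_left, _root_.true_and])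
  refine S.not_nine (i := (utv hF' uF 1 huu h1q : SU 4 F 2)) (a := (suDiag 2 (dA w) hprodA hnA : SU 4 F 2))
    (b := (suDiag 2 (dB w) hprodB hnB : SU 4 F 2)) ?_ ?_ ?_ ?_ ?_ ?_ ?_ ?_ ?_ ?_ ?_
  · rw [← QuotientGroup.mk_mul, ← QuotientGroup.mk_one]
    congr 1
    apply ext_mt
    rw [mt_mul, hT, mt_one]
    ext i j
    (revert i j; simp only [Matrix.mul_apply, Fin.sum_univ_four, _root_.Fin.forall_fin_succ, _root_.Matrix.of_apply, _root_.Matrix.cons_val', _root_.Matrix.cons_val_fin_one, Fin.isValue, _root_.Matrix.cons_val_zero, _root_.Matrix.cons_val_one, _root_.Matrix.cons_val, _root_.MulZeroClass.mul_zero, _root_.mul_one, _root_.zero_add, _root_.add_zero, _root_.Matrix.cons_val_succ, _root_.IsEmpty.forall_iff, _root_.and_true, _root_.Matrix.one_apply_eq, Nat.reduceAdd, _root_.Fin.succ_zero_eq_one, _root_.ne_eq, _root_.zero_ne_one, _root_.not_false_eq_true, _root_.Matrix.one_apply_ne, _root_.Fin.succ_one_eq_two, Fin.reduceEq, Fin.reduceSucc, _root_.and_self, _root_.Fin.succ_ne_zero,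 _root_.true_and])
  · intro h
    rw [← QuotientGroup.mk_one] at h
    obtain ⟨r, hr⟩ := mk_eq hF' (by norm_num) h.symm
    rw [hT, mt_one] at hr
    have := congrFun (congrFun hr 0) 1
    simp at this
  · rw [← QuotientGroup.mk_mul, ← QuotientGroup.mk_mul, hcomm _ _ _ rfl]
  · rw [← QuotientGroup.mk_mul, ← QuotientGroup.mk_mul, hcomm _ _ _ rfl]
  · rw [← QuotientGroup.mk_pow, ← QuotientGroup.mk_one]
    congr 1
    apply ext_mt
    rw [pow_succ, pow_two, mt_mul, mt_mul, mt_diag, mt_one, diagonal_mul_diagonal, diagonal_mul_diagonal]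
    rw [← diagonal_one]
    congr 1
    funext i
    have := hnA i
    rw [pow_succ, pow_two] at this
    exact this
  · rw [← QuotientGroup.mk_pow, ← QuotientGroup.mk_one]
    congr 1
    apply ext_mt
    rw [pow_succ, pow_two, mt_mul, mt_mul, mt_diag, mt_one, diagonal_mul_diagonal, diagonal_mul_diagonal]
    rw [← diagonal_one]
    congr 1
    funext i
    have := hnB i
    rw [pow_succ, pow_two] at this
    exact this
  · rw [← QuotientGroup.mk_mul, ← QuotientGroup.mk_mul]
    congr 1
    apply ext_mt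
    rw [mt_mul, mt_mul, mt_diag, mt_diag, diagonal_mul_diagonal, diagonal_mul_diagonal]
    congr 1
    funext i
    exact mul_comm _ _
  · intro h
    rw [← QuotientGroup.mk_one] at h
    obtain ⟨r, hr⟩ := mk_eq hF' (by norm_num) h.symm
    rw [mt_diag, mt_one] at hr
    have e0 := congrFun (congrFun hr 0) 0
    have e3 := congrFun (congrFun hr 3) 3
    simp [dA] at e0 e3
    exact hw1 (e0.trans e3.symm)
  · intro h
    rw [← QuotientGroup.mk_one] at h
    obtain ⟨r, hr⟩ := mk_eq hF' (by norm_num) h.symm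
    rw [mt_diag, mt_one] at hr
    have e0 := congrFun (congrFun hr 0) 0
    have e3 := congrFun (congrFun hr 2) 2
    simp [dB] at e0 e3
    exact hw1 (e0.trans e3.symm)
  · intro h
    obtain ⟨r, hr⟩ := mk_eq hF' (by norm_num) h.symm
    rw [mt_diag, mt_diag] at hr
    have e0 := congrFun (congrFun hr 0) 0
    have e3 := congrFun (congrFun hr 3) 3
    simp [dA, dB] at e0 e3
    have hr1 : r = 1 := by
      have : (r - 1) * w = 0 := by linear_combination -e0
      exact sub_eq_zero.1 ((mul_eq_zero.1 this).resolve_right hw0)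
    exact hw1 (e3.trans hr1)
  · intro h
    rw [← QuotientGroup.mk_pow] at h
    obtain ⟨r, hr⟩ := mk_eq hF' (by norm_num) h.symm
    rw [pow_two, mt_mul, mt_diag, mt_diag, diagonal_mul_diagonal] at hr
    have e0 := congrFun (congrFun hr 0) 0
    have e3 := congrFun (congrFun hr 2) 2
    simp [dA, dB] at e0 e3
    rw [← e3] at e0
    exact hw1 e0

/-- the diagonal with entries `ω, ω, ω, 1, 1` -/
def dA5 (w : F) : Fin 5 → F := ![w, w, w, 1, 1]
def dB5 (w : F) : Fin 5 → F := ![w, w, 1, w, 1]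
def uF5 : Fin 5 → F := ![1, 1, 0, 0, 0]

theorem psu5_two (hF : Fintype.card F = 4) (S : SHyp (PSU 5 F 2)) : False := by
  have hF' : Fintype.card F = 2 ^ 2 := hF.trans (by norm_num)
  have h2 := two_eq_zero hF
  obtain ⟨w, hw, hw1⟩ := exists_omega hF
  have hw0 : w ≠ 0 := fun h => by rw [h] at hw; simp at hw
  have hfin : Finite (SU 5 F 2) := inferInstance
  have hprodA5 : ∏ i, dA5 w i = 1 := by
    rw [Fin.prod_univ_five]
    simp only [dA5, _root_.Fin.isValue, _root_.Matrix.cons_val_zero, _root_.Matrix.cons_val_one, _root_.Matrix.cons_val, _root_.mul_one]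
    rw [← hw]
    ring
  have hprodB5 : ∏ i, dB5 w i = 1 := by
    rw [Fin.prod_univ_five]
    simp only [dB5, _root_.Fin.isValue, _root_.Matrix.cons_val_zero, _root_.Matrix.cons_val_one, _root_.Matrix.cons_val, _root_.mul_one]
    rw [← hw]
    ring
  have hnA : ∀ i, dA5 w i ^ (2 + 1) = 1 := by
    intro i
    fin_cases i <;> simp [dA5, hw]
  have hnB : ∀ i, dB5 w i ^ (2 + 1) = 1 := by
    intro i
    fin_cases i <;> simp [dB5, hw]
  have huu : hermForm 5 F 2 uF5 uF5 = 0 := by
    rw [hermForm_apply, Fin.sum_univ_five]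
    simp only [uF5, _root_.Fin.isValue, _root_.Matrix.cons_val_zero, _root_.one_pow, _root_.mul_one, _root_.Matrix.cons_val_one, _root_.Matrix.cons_val, _root_.ne_eq, _root_.OfNat.ofNat_ne_zero, _root_.not_false_eq_true, _root_.zero_pow, _root_.MulZeroClass.mul_zero, _root_.add_zero]
    rw [one_add_one_eq_two, h2]
  have h1q : (1 : F) + 1 ^ 2 = 0 := by rw [one_pow, one_add_one_eq_two, h2]
  have hT : (((utv hF' uF5 1 huu h1q : SU 5 F 2) : Matrix.SpecialLinearGroup (Fin 5) F) : Matrix (Fin 5) (Fin 5) F) =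
      !![0, 1, 0, 0, 0; 1, 0, 0, 0, 0; 0, 0, 1, 0, 0; 0, 0, 0, 1, 0; 0, 0, 0, 0, 1] := by
    show 1 + (1 : F) • vecMulVec uF5 (fun j => uF5 j ^ 2) = _
    have h3 : vecMulVec (uF5 : Fin 5 → F) (fun j => uF5 j ^ 2) =
        !![1, 1, 0, 0, 0; 1, 1, 0, 0, 0; 0, 0, 0, 0, 0; 0, 0, 0, 0, 0; 0, 0, 0, 0, 0] := by
      ext i j
      (revert i j; simp only [uF5, vecMulVec_apply, _root_.Fin.forall_fin_succ, _root_.Matrix.of_apply, _root_.Matrix.cons_val', _root_.Matrix.cons_val_fin_one, Fin.isValue, _root_.Matrix.cons_val_zero, _root_.one_pow, _root_.mul_one, _root_.Matrix.cons_val_succ, _root_.ne_eq, _root_.OfNat.ofNat_ne_zero, _root_.not_false_eq_true, _root_.zero_pow, _root_.MulZeroClass.mul_zero, _root_.forall_const, _root_.and_self, _root_.and_self_left, _root_.implies_true])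
    rw [h3, one_smul]
    ext i j
    (revert i j; simp only [one_add_one_eq_two, h2, _root_.Fin.forall_fin_succ, _root_.Matrix.add_apply, _root_.Matrix.of_apply, _root_.Matrix.cons_val', _root_.Matrix.cons_val_fin_one, Fin.isValue, _root_.Matrix.cons_val_zero, _root_.Matrix.cons_val_succ, _root_.IsEmpty.forall_iff, _root_.and_true, _root_.Matrix.one_apply_eq, Nat.reduceAdd, _root_.Fin.succ_zero_eq_one, _root_.ne_eq, _root_.zero_ne_one, _root_.not_false_eq_true, _root_.Matrix.one_apply_ne, _root_.zero_add, _root_.Fin.succ_one_eq_two, Fin.reduceEq, _root_.add_zero, Fin.reduceSucc, _root_.and_self, _root_.Fin.succ_ne_zero, _root_.true_and, _root_.add_eq_right])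
  have hcomm : ∀ (d : Fin 5 → F) (hd : ∏ i, d i = 1) (hn : ∀ i, d i ^ (2 + 1) = 1), d 0 = d 1 →
      suDiag 2 d hd hn * utv hF' uF5 1 huu h1q = utv hF' uF5 1 huu h1q * suDiag 2 d hd hn := by
    intro d hd hn h01
    apply ext_mt
    rw [mt_mul, mt_mul, mt_diag, hT]
    ext i j
    (revert i j; simp only [Matrix.diagonal_mul, Matrix.mul_diagonal, h01, _root_.Fin.forall_fin_succ, _root_.Matrix.of_apply, _root_.Matrix.cons_val', _root_.Matrix.cons_val_fin_one, Fin.isValue, _root_.Matrix.cons_val_zero, _root_.Matrix.cons_val_succ, _root_.Fin.succ_zero_eq_one, _root_.Fin.succ_one_eq_two, Fin.reduceSucc, _root_.IsEmpty.forall_iff, _root_.and_true, _root_.MulZeroClass.mul_zero, _root_.MulZeroClass.zero_mul, _root_.mul_one, _root_.one_mul, _root_.and_self, _root_.and_self_left, _root_.true_and])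
  refine S.not_nine (i := (utv hF' uF5 1 huu h1q : SU 5 F 2)) (a := (suDiag 2 (dA5 w) hprodA5 hnA : SU 5 F 2))
    (b := (suDiag 2 (dB5 w) hprodB5 hnB : SU 5 F 2)) ?_ ?_ ?_ ?_ ?_ ?_ ?_ ?_ ?_ ?_ ?_
  · rw [← QuotientGroup.mk_mul, ← QuotientGroup.mk_one]
    congr 1
    apply ext_mt
    rw [mt_mul, hT, mt_one]
    ext i j
    (revert i j; simp only [Matrix.mul_apply, Fin.sum_univ_five, _root_.Fin.forall_fin_succ, _root_.Matrix.of_apply, _root_.Matrix.cons_val', _root_.Matrix.cons_val_fin_one, Fin.isValue, _root_.Matrix.cons_val_zero, _root_.Matrix.cons_val_one, _root_.Matrix.cons_val, _root_.MulZeroClass.mul_zero, _root_.mul_one, _root_.zero_add, _root_.add_zero, _root_.Matrix.cons_val_succ, _root_.IsEmpty.forall_iff, _root_.and_true, _root_.Matrix.one_apply_eq, Nat.reduceAdd, _root_.Fin.succ_zero_eq_one, _root_.ne_eq, _root_.zero_ne_one, _root_.not_false_eq_true, _root_.Matrix.one_apply_ne, _root_.Fin.succ_one_eq_two, Fin.reduceEq, Fin.reduceSucc, _root_.and_self, _root_.Fin.succ_ne_zero,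 _root_.true_and])
  · intro h
    rw [← QuotientGroup.mk_one] at h
    obtain ⟨r, hr⟩ := mk_eq hF' (by norm_num) h.symm
    rw [hT, mt_one] at hr
    have := congrFun (congrFun hr 0) 1
    simp at this
  · rw [← QuotientGroup.mk_mul, ← QuotientGroup.mk_mul, hcomm _ _ _ rfl]
  · rw [← QuotientGroup.mk_mul, ← QuotientGroup.mk_mul, hcomm _ _ _ rfl]
  · rw [← QuotientGroup.mk_pow, ← QuotientGroup.mk_one]
    congr 1
    apply ext_mt
    rw [pow_succ, pow_two, mt_mul, mt_mul, mt_diag, mt_one, diagonal_mul_diagonal, diagonal_mul_diagonal]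
    rw [← diagonal_one]
    congr 1
    funext i
    have := hnA i
    rw [pow_succ, pow_two] at this
    exact this
  · rw [← QuotientGroup.mk_pow, ← QuotientGroup.mk_one]
    congr 1
    apply ext_mt
    rw [pow_succ, pow_two, mt_mul, mt_mul, mt_diag, mt_one, diagonal_mul_diagonal, diagonal_mul_diagonal]
    rw [← diagonal_one]
    congr 1
    funext i
    have := hnB i
    rw [pow_succ, pow_two] at this
    exact this
  · rw [← QuotientGroup.mk_mul, ← QuotientGroup.mk_mul]
    congr 1
    apply ext_mt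
    rw [mt_mul, mt_mul, mt_diag, mt_diag, diagonal_mul_diagonal, diagonal_mul_diagonal]
    congr 1
    funext i
    exact mul_comm _ _
  · intro h
    rw [← QuotientGroup.mk_one] at h
    obtain ⟨r, hr⟩ := mk_eq hF' (by norm_num) h.symm
    rw [mt_diag, mt_one] at hr
    have e0 := congrFun (congrFun hr 0) 0
    have e3 := congrFun (congrFun hr 3) 3
    simp [dA5] at e0 e3
    exact hw1 (e0.trans e3.symm)
  · intro h
    rw [← QuotientGroup.mk_one] at h
    obtain ⟨r, hr⟩ := mk_eq hF' (by norm_num) h.symm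
    rw [mt_diag, mt_one] at hr
    have e0 := congrFun (congrFun hr 0) 0
    have e3 := congrFun (congrFun hr 2) 2
    simp [dB5] at e0 e3
    exact hw1 (e0.trans e3.symm)
  · intro h
    obtain ⟨r, hr⟩ := mk_eq hF' (by norm_num) h.symm
    rw [mt_diag, mt_diag] at hr
    have e0 := congrFun (congrFun hr 0) 0
    have e3 := congrFun (congrFun hr 3) 3
    simp [dA5, dB5] at e0 e3
    have hr1 : r = 1 := by
      have : (r - 1) * w = 0 := by linear_combination -e0
      exact sub_eq_zero.1 ((mul_eq_zero.1 this).resolve_right hw0)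
    exact hw1 (e3.trans hr1)
  · intro h
    rw [← QuotientGroup.mk_pow] at h
    obtain ⟨r, hr⟩ := mk_eq hF' (by norm_num) h.symm
    rw [pow_two, mt_mul, mt_diag, mt_diag, diagonal_mul_diagonal] at hr
    have e0 := congrFun (congrFun hr 0) 0
    have e3 := congrFun (congrFun hr 2) 2
    simp [dA5, dB5] at e0 e3
    rw [← e3] at e0
    exact hw1 e0

/-! ### characteristic three -/

theorem exists_neg_one (hF : Fintype.card F = 9) : (3 : F) = 0 ∧ (∃ j : F, j * j = -1) ∧ ∃ a : F, a ^ 4 = -1 := by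
  have h3 : (3 : F) = 0 := by
    obtain ⟨p, hp⟩ := CharP.exists F
    obtain ⟨n, hpp, hn⟩ := FiniteField.card F p
    have hp3 : p = 3 := by
      have h1 : p ∣ 3 ^ 2 := by
        rw [show 3 ^ 2 = Fintype.card F by rw [hF]; norm_num, hn]
        exact dvd_pow_self p n.pos.ne'
      exact (Nat.prime_dvd_prime_iff_eq hpp Nat.prime_three).1 (hpp.dvd_of_dvd_pow h1)
    subst hp3
    exact_mod_cast CharP.cast_eq_zero F 3
  obtain ⟨g, hg⟩ := IsCyclic.exists_generator (α := Fˣ)
  have ho : orderOf g = 8 := by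
    rw [orderOf_eq_card_of_forall_mem_zpowers hg, Nat.card_units, Nat.card_eq_fintype_card, hF]
  have h8 : (g : F) ^ 8 = 1 := by
    rw [← Units.val_pow_eq_pow_val, ← ho, pow_orderOf_eq_one, Units.val_one]
  have h4 : (g : F) ^ 4 = -1 := by
    have h5 : ((g : F) ^ 4) * (g : F) ^ 4 = 1 := by rw [← pow_add, h8]
    rcases mul_self_eq_one_iff.1 h5 with h | h
    · exfalso
      have h6 : g ^ 4 = 1 := Units.ext (by rw [Units.val_pow_eq_pow_val, h, Units.val_one])
      have := orderOf_dvd_of_pow_eq_one h6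
      rw [ho] at this
      omega
    · exact h
  exact ⟨h3, ⟨(g : F) ^ 2, by rw [← pow_add, h4]⟩, g, h4⟩

/-- `(1, α, 0)` -/
def vv (a : F) : Fin 3 → F := ![1, a, 0]

theorem psu3_three (hF : Fintype.card F = 9) (S : SHyp (PSU 3 F 3)) : False := by
  have hF' : Fintype.card F = 3 ^ 2 := hF.trans (by norm_num)
  obtain ⟨h3, ⟨j, hj⟩, a, ha⟩ := exists_neg_one hF
  have hfin : Finite (SU 3 F 3) := inferInstance
  have h11 : (-1 : F) ≠ 1 := fun h => by
    have h1 : (1 : F) = 0 := by linear_combination h3 + h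
    exact one_ne_zero h1
  have hj3 : j ^ 3 = -j := by rw [pow_succ, pow_two, hj]; ring
  have hj0 : j ≠ 0 := fun h => by rw [h] at hj; simp at hj
  have ha0 : a ≠ 0 := fun h => by rw [h] at ha; simp at ha
  have hvv : hermForm 3 F 3 (vv a) (vv a) = 0 := by
    rw [hermForm_apply, Fin.sum_univ_three]
    simp only [vv, _root_.Fin.isValue, _root_.Matrix.cons_val_zero, _root_.one_pow, _root_.mul_one, _root_.Matrix.cons_val_one, _root_.Matrix.cons_val, _root_.ne_eq, _root_.OfNat.ofNat_ne_zero, _root_.not_false_eq_true, _root_.zero_pow, _root_.MulZeroClass.mul_zero, _root_.add_zero]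
    rw [← pow_succ', ha]
    ring
  have hjq : j + j ^ 3 = 0 := by rw [hj3]; ring
  have hp1 : ∏ i, (![-1, -1, 1] : Fin 3 → F) i = 1 := by
    rw [Fin.prod_univ_three]
    simp
  have hn1 : ∀ i, (![-1, -1, 1] : Fin 3 → F) i ^ (3 + 1) = 1 := by
    intro i
    (revert i; simp only [_root_.Fin.forall_fin_succ, _root_.Nat.succ_eq_add_one, Nat.reduceAdd, Fin.isValue, _root_.Matrix.cons_val_zero, _root_.Matrix.cons_val_succ, _root_.Matrix.cons_val_fin_one, _root_.one_pow, _root_.implies_true, _root_.and_true, _root_.and_self]) <;> (repeat' with_reducible apply And.intro) <;> norm_num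
  have hp2 : ∏ i, (![j, j, -1] : Fin 3 → F) i = 1 := by
    rw [Fin.prod_univ_three]
    simp [hj]
  have hj4 : j ^ 4 = 1 := by rw [pow_succ, hj3]; linear_combination -hj
  have hn2 : ∀ i, (![j, j, -1] : Fin 3 → F) i ^ (3 + 1) = 1 := by
    intro i
    (revert i; simp only [_root_.Fin.forall_fin_succ, _root_.Nat.succ_eq_add_one, Nat.reduceAdd, Fin.isValue, _root_.Matrix.cons_val_zero, _root_.Matrix.cons_val_succ, _root_.Matrix.cons_val_fin_one, _root_.forall_const, _root_.and_self_left]) <;> (repeat' with_reducible apply And.intro) <;> first | exact hj4 | norm_num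
  have hT : (((utv hF' (vv a) j hvv hjq : SU 3 F 3) : Matrix.SpecialLinearGroup (Fin 3) F) : Matrix (Fin 3) (Fin 3) F) =
      !![1 + j, j * a ^ 3, 0; j * a, 1 + j * (a * a ^ 3), 0; 0, 0, 1] := by
    show 1 + j • vecMulVec (vv a) (fun i => vv a i ^ 3) = _
    have h4 : vecMulVec (vv a) (fun i => vv a i ^ 3) = !![1, a ^ 3, 0; a, a * a ^ 3, 0; 0, 0, 0] := by
      ext i k
      (revert i k; simp only [vv, vecMulVec_apply, _root_.Fin.forall_fin_succ, _root_.Matrix.of_apply, _root_.Matrix.cons_val', _root_.Matrix.cons_val_fin_one, Fin.isValue, _root_.Matrix.cons_val_zero, _root_.one_pow, _root_.mul_one, _root_.Matrix.cons_val_succ, _root_.ne_eq, _root_.OfNat.ofNat_ne_zero, _root_.not_false_eq_true, _root_.zero_pow, _root_.MulZeroClass.mul_zero, _root_.forall_const, _root_.one_mul, _root_.and_self, _root_.MulZeroClass.zero_mul, _root_.implies_true])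
    rw [h4]
    ext i k
    (revert i k; simp only [_root_.Fin.forall_fin_succ, _root_.Matrix.smul_of, _root_.Matrix.smul_cons, _root_.smul_eq_mul, _root_.mul_one, _root_.MulZeroClass.mul_zero, _root_.Matrix.smul_empty, _root_.Matrix.add_apply, _root_.Matrix.of_apply, _root_.Matrix.cons_val', _root_.Matrix.cons_val_fin_one, Fin.isValue, _root_.Matrix.cons_val_zero, _root_.Matrix.cons_val_succ, _root_.IsEmpty.forall_iff, _root_.and_true, _root_.Matrix.one_apply_eq, Nat.reduceAdd, _root_.Fin.succ_zero_eq_one, _root_.ne_eq, _root_.zero_ne_one, _root_.not_false_eq_true, _root_.Matrix.one_apply_ne, _root_.zero_add, _root_.Fin.succ_one_eq_two, Fin.reduceEq, _root_.add_zero, _root_.and_self, _root_.Fin.succ_ne_zero, _root_.true_and])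
  have hcomm : ∀ (d : Fin 3 → F) (hd : ∏ i, d i = 1) (hn : ∀ i, d i ^ (3 + 1) = 1), d 0 = d 1 →
      utv hF' (vv a) j hvv hjq * suDiag 3 d hd hn = suDiag 3 d hd hn * utv hF' (vv a) j hvv hjq := by
    intro d hd hn h01
    apply ext_mt
    rw [mt_mul, mt_mul, mt_diag, hT]
    ext i k
    (revert i k; simp only [Matrix.diagonal_mul, Matrix.mul_diagonal, h01, mul_comm, _root_.Fin.forall_fin_succ, _root_.Matrix.of_apply, _root_.Matrix.cons_val', _root_.Matrix.cons_val_fin_one, _root_.mul_eq_mul_right_iff, Fin.isValue, _root_.Matrix.cons_val_zero, _root_.Matrix.cons_val_succ, _root_.Fin.succ_zero_eq_one, _root_.Fin.succ_one_eq_two, _root_.IsEmpty.forall_iff, _root_.and_true, _root_.true_or, _root_.mul_eq_zero, _root_.ne_eq, _root_.OfNat.ofNat_ne_zero, _root_.not_false_eq_true, _root_.pow_eq_zero_iff, _root_.or_true, _root_.and_self, _root_.one_ne_zero, _root_.or_false, _root_.true_and])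
  have key := S.pow_six' (i := (suDiag 3 ![-1, -1, 1] hp1 hn1 : SU 3 F 3))
    (y := (utv hF' (vv a) j hvv hjq : SU 3 F 3)) (w := (suDiag 3 ![j, j, -1] hp2 hn2 : SU 3 F 3)) ?_ ?_ ?_ ?_ ?_ ?_ ?_
  · rw [← QuotientGroup.mk_pow, ← QuotientGroup.mk_one] at key
    obtain ⟨r, hr⟩ := mk_eq hF' le_rfl key.symm
    have h6 : (((suDiag 3 ![j, j, -1] hp2 hn2 : SU 3 F 3) ^ 6 : SU 3 F 3) : Matrix.SpecialLinearGroup (Fin 3) F).1 =
        Matrix.diagonal (![j, j, -1] : Fin 3 → F) ^ 6 := rfl
    rw [h6, diagonal_pow, mt_one] at hr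
    have e0 := congrFun (congrFun hr 0) 0
    have e2 := congrFun (congrFun hr 2) 2
    simp only [_root_.Nat.succ_eq_add_one, _root_.Nat.reduceAdd, _root_.Fin.isValue, _root_.Matrix.diagonal_apply_eq, _root_.Pi.pow_apply, _root_.Matrix.cons_val_zero, _root_.Matrix.smul_apply, _root_.Matrix.one_apply_eq, _root_.smul_eq_mul, _root_.mul_one, _root_.Matrix.cons_val] at e0 e2
    have hj6 : j ^ 6 = -1 := by
      rw [show 6 = 4 + 2 from rfl, pow_add, hj4, one_mul, pow_two, hj]
    rw [hj6] at e0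
    apply h11
    rw [e0, ← e2]
    norm_num
  · rw [← QuotientGroup.mk_mul, ← QuotientGroup.mk_one]
    congr 1
    apply ext_mt
    rw [mt_mul, mt_diag, mt_one, diagonal_mul_diagonal, ← diagonal_one]
    congr 1
    funext i
    (revert i; simp only [_root_.Fin.forall_fin_succ, Fin.isValue, _root_.Matrix.cons_val_zero, _root_.mul_neg, _root_.mul_one, _root_.neg_neg, _root_.Matrix.cons_val_succ, _root_.Matrix.cons_val_fin_one, _root_.implies_true, _root_.and_self])
  · intro h
    rw [← QuotientGroup.mk_one] at h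
    obtain ⟨r, hr⟩ := mk_eq hF' le_rfl h.symm
    rw [mt_diag, mt_one] at hr
    have e0 := congrFun (congrFun hr 0) 0
    have e2 := congrFun (congrFun hr 2) 2
    simp at e0 e2
    exact h11 (e0.trans e2.symm)
  · rw [← QuotientGroup.mk_pow, ← QuotientGroup.mk_one]
    congr 1
    apply ext_mt
    rw [pow_succ, pow_two, mt_mul, mt_mul, mt_one]
    show (1 + j • vecMulVec (vv a) (fun i => vv a i ^ 3)) * (1 + j • vecMulVec (vv a) (fun i => vv a i ^ 3)) *
      (1 + j • vecMulVec (vv a) (fun i => vv a i ^ 3)) = 1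
    have hN : vecMulVec (vv a) (fun i => vv a i ^ 3) * vecMulVec (vv a) (fun i => vv a i ^ 3) = 0 := by
      rw [vecMulVec_mul_vecMulVec]
      have : (fun i => vv a i ^ 3) ⬝ᵥ vv a = 0 := by
        rw [dotProduct_comm]
        exact hvv
      rw [this]
      simp
    generalize vecMulVec (vv a) (fun i => vv a i ^ 3) = N at hN
    have h5 : (1 + j • N) * (1 + j • N) = 1 + (2 * j) • N := by
      rw [mul_add, mul_one, add_mul, one_mul, smul_mul_smul_comm, hN, smul_zero, add_zero, add_assoc, ← add_smul,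
        two_mul]
    rw [h5, mul_add, mul_one, add_mul, one_mul, smul_mul_smul_comm, hN, smul_zero, add_zero, add_assoc, ← add_smul,
      show 2 * j + j = 3 * j by ring, h3, zero_mul, zero_smul, add_zero]
  · intro h
    rw [← QuotientGroup.mk_one] at h
    obtain ⟨r, hr⟩ := mk_eq hF' le_rfl h.symm
    rw [hT, mt_one] at hr
    have e := congrFun (congrFun hr 0) 1
    simp [hj0, ha0] at e
  · rw [← QuotientGroup.mk_mul, ← QuotientGroup.mk_mul, hcomm _ _ _ (by simp)]
  · rw [← QuotientGroup.mk_mul, ← QuotientGroup.mk_mul]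
    congr 1
    apply ext_mt
    rw [mt_mul, mt_mul, mt_diag, mt_diag, diagonal_mul_diagonal, diagonal_mul_diagonal]
    congr 1
    funext i
    exact mul_comm _ _
  · rw [← QuotientGroup.mk_mul, ← QuotientGroup.mk_mul, hcomm _ _ _ (by simp)]

theorem utv_cube (hF : Fintype.card F = q ^ 2) (h3 : (3 : F) = 0) {v : Fin n → F} {c : F}
    (hv : hermForm n F q v v = 0) (hc : c + c ^ q = 0) : utv hF v c hv hc ^ 3 = 1 := by
  apply ext_mt
  rw [pow_succ, pow_two, mt_mul, mt_mul, mt_one]
  show (1 + c • vecMulVec v (fun i => v i ^ q)) * (1 + c • vecMulVec v (fun i => v i ^ q)) *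
    (1 + c • vecMulVec v (fun i => v i ^ q)) = 1
  have hN : vecMulVec v (fun i => v i ^ q) * vecMulVec v (fun i => v i ^ q) = 0 := by
    rw [vecMulVec_mul_vecMulVec]
    have : (fun i => v i ^ q) ⬝ᵥ v = 0 := by
      rw [dotProduct_comm]
      exact hv
    rw [this]
    simp
  generalize vecMulVec v (fun i => v i ^ q) = N at hN
  have h5 : (1 + c • N) * (1 + c • N) = 1 + (2 * c) • N := by
    rw [mul_add, mul_one, add_mul, one_mul, smul_mul_smul_comm, hN, smul_zero, add_zero, add_assoc, ← add_smul,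
      two_mul]
  rw [h5, mul_add, mul_one, add_mul, one_mul, smul_mul_smul_comm, hN, smul_zero, add_zero, add_assoc, ← add_smul,
    show 2 * c + c = 3 * c by ring, h3, zero_mul, zero_smul, add_zero]

theorem utv_comm (hF : Fintype.card F = q ^ 2) {v w : Fin n → F} {c d : F}
    (hv : hermForm n F q v v = 0) (hc : c + c ^ q = 0) (hw : hermForm n F q w w = 0) (hd : d + d ^ q = 0)
    (hvw : hermForm n F q v w = 0) (hwv : hermForm n F q w v = 0) :
    utv hF v c hv hc * utv hF w d hw hd = utv hF w d hw hd * utv hF v c hv hc := by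
  apply ext_mt
  rw [mt_mul, mt_mul]
  show (1 + c • vecMulVec v (fun i => v i ^ q)) * (1 + d • vecMulVec w (fun i => w i ^ q)) =
    (1 + d • vecMulVec w (fun i => w i ^ q)) * (1 + c • vecMulVec v (fun i => v i ^ q))
  have h1 : vecMulVec v (fun i => v i ^ q) * vecMulVec w (fun i => w i ^ q) = 0 := by
    rw [vecMulVec_mul_vecMulVec]
    have : (fun i => v i ^ q) ⬝ᵥ w = 0 := by
      rw [dotProduct_comm]
      exact hwv
    rw [this]
    simp
  have h2 : vecMulVec w (fun i => w i ^ q) * vecMulVec v (fun i => v i ^ q) = 0 := by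
    rw [vecMulVec_mul_vecMulVec]
    have : (fun i => w i ^ q) ⬝ᵥ v = 0 := by
      rw [dotProduct_comm]
      exact hvw
    rw [this]
    simp
  rw [mul_add, mul_one, add_mul, one_mul, smul_mul_smul_comm, h1, smul_zero, add_zero, mul_add, mul_one, add_mul,
    one_mul, smul_mul_smul_comm, h2, smul_zero, add_zero]
  abel

/-- `(1, α, 0, 0)` and `(0, 0, 1, α)` -/
def v1 (a : F) : Fin 4 → F := ![1, a, 0, 0]
def v2 (a : F) : Fin 4 → F := ![0, 0, 1, a]

theorem psu4_three (hF : Fintype.card F = 9) (S : SHyp (PSU 4 F 3)) : False := by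
  have hF' : Fintype.card F = 3 ^ 2 := hF.trans (by norm_num)
  obtain ⟨h3, ⟨j, hj⟩, a, ha⟩ := exists_neg_one hF
  have hfin : Finite (SU 4 F 3) := inferInstance
  have h11 : (-1 : F) ≠ 1 := fun h => by
    have h1 : (1 : F) = 0 := by linear_combination h3 + h
    exact one_ne_zero h1
  have h20 : (2 : F) ≠ 0 := fun h => by
    apply h11
    linear_combination -h
  have hj3 : j ^ 3 = -j := by rw [pow_succ, pow_two, hj]; ring
  have hj0 : j ≠ 0 := fun h => by rw [h] at hj; simp at hj
  have ha0 : a ≠ 0 := fun h => by rw [h] at ha; simp at ha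
  have h11' : hermForm 4 F 3 (v1 a) (v1 a) = 0 := by
    rw [hermForm_apply, Fin.sum_univ_four]
    simp only [v1, _root_.Fin.isValue, _root_.Matrix.cons_val_zero, _root_.one_pow, _root_.mul_one, _root_.Matrix.cons_val_one, _root_.Matrix.cons_val, _root_.ne_eq, _root_.OfNat.ofNat_ne_zero, _root_.not_false_eq_true, _root_.zero_pow, _root_.MulZeroClass.mul_zero, _root_.add_zero]
    rw [← pow_succ', ha]
    ring
  have h22' : hermForm 4 F 3 (v2 a) (v2 a) = 0 := by
    rw [hermForm_apply, Fin.sum_univ_four]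
    simp only [v2, _root_.Fin.isValue, _root_.Matrix.cons_val_zero, _root_.ne_eq, _root_.OfNat.ofNat_ne_zero, _root_.not_false_eq_true, _root_.zero_pow, _root_.MulZeroClass.mul_zero, _root_.Matrix.cons_val_one, _root_.add_zero, _root_.Matrix.cons_val, _root_.one_pow, _root_.mul_one, _root_.zero_add]
    rw [← pow_succ', ha]
    ring
  have h12' : hermForm 4 F 3 (v1 a) (v2 a) = 0 := by
    rw [hermForm_apply, Fin.sum_univ_four]
    simp [v1, v2]
  have h21' : hermForm 4 F 3 (v2 a) (v1 a) = 0 := by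
    rw [hermForm_apply, Fin.sum_univ_four]
    simp [v1, v2]
  have hjq : j + j ^ 3 = 0 := by rw [hj3]; ring
  have hp1 : ∏ i, (![-1, -1, 1, 1] : Fin 4 → F) i = 1 := by
    rw [Fin.prod_univ_four]
    simp
  have hn1 : ∀ i, (![-1, -1, 1, 1] : Fin 4 → F) i ^ (3 + 1) = 1 := by
    intro i
    (revert i; simp only [_root_.Fin.forall_fin_succ, _root_.Nat.succ_eq_add_one, Nat.reduceAdd, Fin.isValue, _root_.Matrix.cons_val_zero, _root_.Matrix.cons_val_succ, _root_.one_pow, _root_.Matrix.cons_val_fin_one, _root_.implies_true, _root_.and_self, _root_.and_true]) <;> (repeat' with_reducible apply And.intro) <;> norm_num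
  have hT1 : (((utv hF' (v1 a) j h11' hjq : SU 4 F 3) : Matrix.SpecialLinearGroup (Fin 4) F) :
      Matrix (Fin 4) (Fin 4) F) =
      !![1 + j, j * a ^ 3, 0, 0; j * a, 1 + j * (a * a ^ 3), 0, 0; 0, 0, 1, 0; 0, 0, 0, 1] := by
    show 1 + j • vecMulVec (v1 a) (fun i => v1 a i ^ 3) = _
    have h4 : vecMulVec (v1 a) (fun i => v1 a i ^ 3) =
        !![1, a ^ 3, 0, 0; a, a * a ^ 3, 0, 0; 0, 0, 0, 0; 0, 0, 0, 0] := by
      ext i k
      (revert i k; simp only [v1, vecMulVec_apply, _root_.Fin.forall_fin_succ, _root_.Matrix.of_apply, _root_.Matrix.cons_val', _root_.Matrix.cons_val_fin_one, Fin.isValue, _root_.Matrix.cons_val_zero, _root_.one_pow, _root_.mul_one, _root_.Matrix.cons_val_succ, _root_.ne_eq, _root_.OfNat.ofNat_ne_zero, _root_.not_false_eq_true, _root_.zero_pow, _root_.MulZeroClass.mul_zero, _root_.forall_const, _root_.and_self, _root_.one_mul, _root_.MulZeroClass.zero_mul, _root_.implies_true])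
    rw [h4]
    ext i k
    (revert i k; simp only [_root_.Fin.forall_fin_succ, _root_.Matrix.smul_of, _root_.Matrix.smul_cons, _root_.smul_eq_mul, _root_.mul_one, _root_.MulZeroClass.mul_zero, _root_.Matrix.smul_empty, _root_.Matrix.add_apply, _root_.Matrix.of_apply, _root_.Matrix.cons_val', _root_.Matrix.cons_val_fin_one, Fin.isValue, _root_.Matrix.cons_val_zero, _root_.Matrix.cons_val_succ, _root_.IsEmpty.forall_iff, _root_.and_true, _root_.Matrix.one_apply_eq, Nat.reduceAdd, _root_.Fin.succ_zero_eq_one, _root_.ne_eq, _root_.zero_ne_one, _root_.not_false_eq_true, _root_.Matrix.one_apply_ne, _root_.zero_add, _root_.Fin.succ_one_eq_two, Fin.reduceEq, _root_.add_zero, Fin.reduceSucc, _root_.and_self, _root_.Fin.succ_ne_zero, _root_.true_and, _root_.add_eq_right])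
  have hT2 : (((utv hF' (v2 a) j h22' hjq : SU 4 F 3) : Matrix.SpecialLinearGroup (Fin 4) F) :
      Matrix (Fin 4) (Fin 4) F) =
      !![1, 0, 0, 0; 0, 1, 0, 0; 0, 0, 1 + j, j * a ^ 3; 0, 0, j * a, 1 + j * (a * a ^ 3)] := by
    show 1 + j • vecMulVec (v2 a) (fun i => v2 a i ^ 3) = _
    have h4 : vecMulVec (v2 a) (fun i => v2 a i ^ 3) =
        !![0, 0, 0, 0; 0, 0, 0, 0; 0, 0, 1, a ^ 3; 0, 0, a, a * a ^ 3] := by
      ext i k
      (revert i k; simp only [v2, vecMulVec_apply, _root_.Fin.forall_fin_succ, _root_.Matrix.of_apply, _root_.Matrix.cons_val', _root_.Matrix.cons_val_fin_one, Fin.isValue, _root_.Matrix.cons_val_zero, _root_.ne_eq, _root_.OfNat.ofNat_ne_zero, _root_.not_false_eq_true, _root_.zero_pow, _root_.MulZeroClass.mul_zero, _root_.Matrix.cons_val_succ, _root_.one_pow, _root_.mul_one, _root_.forall_const, _root_.and_self_left, _root_.MulZeroClass.zero_mul, _root_.and_self, _root_.one_mul, _root_.implies_true])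
    rw [h4]
    ext i k
    (revert i k; simp only [_root_.Fin.forall_fin_succ, _root_.Matrix.smul_of, _root_.Matrix.smul_cons, _root_.smul_eq_mul, _root_.MulZeroClass.mul_zero, _root_.Matrix.smul_empty, _root_.mul_one, _root_.Matrix.add_apply, _root_.Matrix.of_apply, _root_.Matrix.cons_val', _root_.Matrix.cons_val_fin_one, Fin.isValue, _root_.Matrix.cons_val_zero, _root_.Matrix.cons_val_succ, _root_.IsEmpty.forall_iff, _root_.and_true, _root_.Matrix.one_apply_eq, _root_.add_zero, Nat.reduceAdd, _root_.Fin.succ_zero_eq_one, _root_.ne_eq, _root_.zero_ne_one, _root_.not_false_eq_true, _root_.Matrix.one_apply_ne, _root_.Fin.succ_one_eq_two, Fin.reduceEq, Fin.reduceSucc, _root_.and_self, _root_.Fin.succ_ne_zero, _root_.zero_add, _root_.true_and, _root_.add_eq_right, _root_.add_left_inj])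
  refine S.not_nine (i := (suDiag 3 ![-1, -1, 1, 1] hp1 hn1 : SU 4 F 3))
    (a := (utv hF' (v1 a) j h11' hjq : SU 4 F 3)) (b := (utv hF' (v2 a) j h22' hjq : SU 4 F 3))
    ?_ ?_ ?_ ?_ ?_ ?_ ?_ ?_ ?_ ?_ ?_
  · rw [← QuotientGroup.mk_mul, ← QuotientGroup.mk_one]
    congr 1
    apply ext_mt
    rw [mt_mul, mt_diag, mt_one, diagonal_mul_diagonal, ← diagonal_one]
    congr 1
    funext i
    (revert i; simp only [_root_.Fin.forall_fin_succ, Fin.isValue, _root_.Matrix.cons_val_zero, _root_.mul_neg, _root_.mul_one, _root_.neg_neg, _root_.Matrix.cons_val_succ, _root_.Matrix.cons_val_fin_one, _root_.implies_true, _root_.and_self])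
  · intro h
    rw [← QuotientGroup.mk_one] at h
    obtain ⟨r, hr⟩ := mk_eq hF' (by norm_num) h.symm
    rw [mt_diag, mt_one] at hr
    have e0 := congrFun (congrFun hr 0) 0
    have e2 := congrFun (congrFun hr 2) 2
    simp at e0 e2
    exact h11 (e0.trans e2.symm)
  · rw [← QuotientGroup.mk_mul, ← QuotientGroup.mk_mul]
    congr 1
    apply ext_mt
    rw [mt_mul, mt_mul, mt_diag, hT1]
    ext i k
    (revert i k; simp only [Matrix.diagonal_mul, Matrix.mul_diagonal, _root_.Fin.forall_fin_succ, _root_.Matrix.of_apply, _root_.Matrix.cons_val', _root_.Matrix.cons_val_fin_one, Fin.isValue, _root_.Matrix.cons_val_zero, _root_.mul_neg, _root_.mul_one, _root_.Matrix.cons_val_succ, _root_.forall_const, _root_.neg_add_rev, _root_.neg_mul, _root_.one_mul, _root_.MulZeroClass.mul_zero, _root_.and_self, _root_.and_self_left, _root_.neg_zero, _root_.implies_true])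
  · rw [← QuotientGroup.mk_mul, ← QuotientGroup.mk_mul]
    congr 1
    apply ext_mt
    rw [mt_mul, mt_mul, mt_diag, hT2]
    ext i k
    (revert i k; simp only [Matrix.diagonal_mul, Matrix.mul_diagonal, _root_.Fin.forall_fin_succ, _root_.Matrix.of_apply, _root_.Matrix.cons_val', _root_.Matrix.cons_val_fin_one, Fin.isValue, _root_.Matrix.cons_val_zero, _root_.mul_neg, _root_.mul_one, _root_.Matrix.cons_val_succ, _root_.forall_const, _root_.neg_zero, _root_.MulZeroClass.mul_zero, _root_.and_self, _root_.and_self_left, _root_.one_mul, _root_.implies_true])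
  · rw [← QuotientGroup.mk_pow, utv_cube hF' h3, QuotientGroup.mk_one]
  · rw [← QuotientGroup.mk_pow, utv_cube hF' h3, QuotientGroup.mk_one]
  · rw [← QuotientGroup.mk_mul, ← QuotientGroup.mk_mul, utv_comm hF' h11' hjq h22' hjq h12' h21']
  · intro h
    rw [← QuotientGroup.mk_one] at h
    obtain ⟨r, hr⟩ := mk_eq hF' (by norm_num) h.symm
    rw [hT1, mt_one] at hr
    have e := congrFun (congrFun hr 0) 1
    simp [hj0, ha0] at e
  · intro h
    rw [← QuotientGroup.mk_one] at h
    obtain ⟨r, hr⟩ := mk_eq hF' (by norm_num) h.symm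
    rw [hT2, mt_one] at hr
    have e := congrFun (congrFun hr 2) 3
    simp [hj0, ha0] at e
  · intro h
    obtain ⟨r, hr⟩ := mk_eq hF' (by norm_num) h
    rw [hT1, hT2] at hr
    have e := congrFun (congrFun hr 0) 1
    simp [hj0, ha0] at e
  · intro h
    rw [← QuotientGroup.mk_pow] at h
    obtain ⟨r, hr⟩ := mk_eq hF' (by norm_num) h
    rw [pow_two, mt_mul, hT1, hT2] at hr
    have e := congrFun (congrFun hr 0) 1
    simp only [Matrix.mul_apply, Fin.sum_univ_four, _root_.Fin.isValue, _root_.Matrix.of_apply, _root_.Matrix.cons_val', _root_.Matrix.cons_val_fin_one, _root_.Matrix.cons_val_zero, _root_.Matrix.cons_val_one, _root_.Matrix.cons_val, _root_.MulZeroClass.mul_zero, _root_.add_zero, _root_.Matrix.smul_apply, _root_.smul_eq_mul] at e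
    have h5 : (2 : F) * (j * a ^ 3) = 0 := by
      have h6 : a * a ^ 3 = -1 := by rw [← pow_succ', ha]
      linear_combination e - j * j * a ^ 3 * h6
    exact (mul_ne_zero h20 (mul_ne_zero hj0 (pow_ne_zero 3 ha0))) h5

end Cfsg.Agent.H395.Six.Unit

private theorem dce_2129b78486c1 : _root_.True := by
  try have : _root_.True := by simp only [_root_.Cfsg.Agent.H395.Six.Unit.uF5.eq_1]
  try have : _root_.True := by simp only [_root_.Cfsg.Agent.H395.Six.Unit.dB5.eq_1]
  try have : _root_.True := by simp only [_root_.Cfsg.Agent.H395.Six.Unit.dA5.eq_1]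
  try have : _root_.True := by simp only [_root_.Cfsg.Agent.H395.Six.Unit.vv.eq_1]
  try have : _root_.True := by simp only [_root_.Cfsg.Agent.H395.Six.Unit.dB.eq_1]
  try have : _root_.True := by simp only [_root_.Cfsg.Agent.H395.Six.Unit.uF.eq_1]
  try have : _root_.True := by simp only [_root_.Cfsg.Agent.H395.Six.Unit.dA.eq_1]
  try have : _root_.True := by simp only [_root_.Cfsg.Agent.H395.Six.Unit.v2.eq_1]
  try have : _root_.True := by simp only [_root_.Cfsg.Agent.H395.Six.Unit.v1.eq_1]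
  exact _root_.True.intro
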