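import Cfsg.Agent.H395.SixAlt
import Cfsg.Agent.H395.SixPsl
import Cfsg.Agent.H395.SixMTwoTwo_m3
import Cfsg.Agent.H395.SixUnit
import Cfsg.Agent.H395.SixSp
import Cfsg.Agent.H395.SixTits
import Cfsg.Agent.H395.SixGTwo
import Cfsg.Prelude.Def_Spor_J1
import Cfsg.Agent.H517.Conway_m3
import Cfsg.Agent.FastGrp
import Cfsg.Agent.Prune
set_option linter.all false
prune_inst 0x7f00000000000000000000000000000000000000000000000000000000000000000000000000000000000000000000000000000000000000000000000000000000000000000000000000000000000000003fffffffffffffffffffffffffffbeffbdffffffff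
open scoped Cfsg.Agent.FastGrp

/-!
# One class of involutions and a self-centralizing cyclic subgroup of order 6: the assembly
-/

set_option autoImplicit false

namespace Cfsg.Agent.H395.Six

open Subgroup Cfsg

universe u

/-- the simple groups with solvable centralizers of involutions -/
def List98 (S : Type u) [Group S] : Prop :=
  Spor.IsoM11 S ∨ Nonempty (S ≃* Spor.M22) ∨
  (∃ n : ℕ, 5 ≤ n ∧ n ≤ 8 ∧ Nonempty (S ≃* alternatingGroup (Fin n))) ∨
  (∃ (F : Type) (_ : Field F) (_ : Fintype F), Nonempty (S ≃* Matrix.ProjectiveSpecialLinearGroup (Fin 2) F)) ∨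
  (∃ (F : Type) (_ : Field F) (_ : Fintype F), ringChar F = 2 ∧
      Nonempty (S ≃* Matrix.ProjectiveSpecialLinearGroup (Fin 3) F)) ∨
  (∃ (F : Type) (_ : Field F) (_ : Fintype F) (f : ℕ), 2 ≤ f ∧ Fintype.card F = (2 ^ f) ^ 2 ∧
      Nonempty (S ≃* Cfsg.PSU 3 F (2 ^ f))) ∨
  (∃ (F : Type) (_ : Field F) (_ : Fintype F), Fintype.card F = 3 ∧
      Nonempty (S ≃* Matrix.ProjectiveSpecialLinearGroup (Fin 3) F)) ∨
  Nonempty (S ≃* Cfsg.PSp 2 (ZMod 3)) ∨
  (∃ (F : Type) (_ : Field F) (_ : Fintype F), Fintype.card F = 9 ∧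
      (Nonempty (S ≃* Cfsg.PSU 3 F 3) ∨ Nonempty (S ≃* Cfsg.PSU 4 F 3))) ∨
  (∃ (F : Type) (_ : Field F) (_ : Fintype F), Fintype.card F = 4 ∧
      (Nonempty (S ≃* Cfsg.PSU 4 F 2) ∨ Nonempty (S ≃* Cfsg.PSU 5 F 2))) ∨
  Nonempty (S ≃* Cfsg.Lie.G2 (ZMod 3)) ∨ Cfsg.Lie.IsoSuzuki S ∨ Cfsg.Lie.IsoTits S

/-- the conclusion -/
def Concl (G : Type u) [Group G] : Prop :=
  (∃ (F : Type) (_ : Field F) (_ : Fintype F), (Fintype.card F = 11 ∨ Fintype.card F = 13) ∧
      Nonempty (G ≃* Matrix.ProjectiveSpecialLinearGroup (Fin 2) F)) ∨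
    (∃ (F : Type) (_ : Field F) (_ : Fintype F), Fintype.card F = 3 ∧
      Nonempty (G ≃* Matrix.ProjectiveSpecialLinearGroup (Fin 3) F)) ∨
    Cfsg.Spor.IsoM11 G ∨ Cfsg.Spor.IsoJ1 G

theorem two_eq_zero {F : Type} [Field F] (h : ringChar F = 2) : (2 : F) = 0 := by
  have := ringChar.Nat.cast_ringChar (R := F)
  rw [h] at this
  exact_mod_cast this

/-- **the solvable case** -/
theorem solv {G : Type u} [Group G] (S : SHyp G) (h : List98 G) : Concl G := by
  rcases h with h | ⟨⟨e⟩⟩ | ⟨n, h1, h2, ⟨e⟩⟩ | ⟨F, _, _, ⟨e⟩⟩ | ⟨F, _, _, h, ⟨e⟩⟩ | ⟨F, _, _, f, hf, hF, ⟨e⟩⟩ | h | ⟨⟨e⟩⟩ |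
    ⟨F, _, _, hF, ⟨⟨e⟩⟩ | ⟨⟨e⟩⟩⟩ | ⟨F, _, _, hF, ⟨⟨e⟩⟩ | ⟨⟨e⟩⟩⟩ | ⟨⟨e⟩⟩ | h | ⟨⟨e⟩⟩
  · exact Or.inr (Or.inr (Or.inl h))
  · exact (MTwoTwo.m22 (S.map e)).elim
  · exact (Alt.main h1 h2 (S.map e)).elim
  · exact Or.inl ⟨F, _, _, Psl.psl2 (S.map e), ⟨e⟩⟩
  · exact (Even.psl3 (two_eq_zero h) (S.map e)).elim
  · have h2 : (2 : F) = 0 := by
      obtain ⟨p, hp⟩ := CharP.exists F
      obtain ⟨n, hpp, hn⟩ := FiniteField.card F p
      have hp2 : p = 2 := by
        have h1 : p ∣ 2 ^ (f * 2) := by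
          rw [pow_mul, ← hF, hn]
          exact dvd_pow_self p n.pos.ne'
        exact (Nat.prime_dvd_prime_iff_eq hpp Nat.prime_two).1 (hpp.dvd_of_dvd_pow h1)
      subst hp2
      exact_mod_cast CharP.cast_eq_zero F 2
    refine (Even.psu3 h2 hF ?_ (S.map e)).elim
    calc 4 = 2 ^ 2 := by norm_num
      _ ≤ 2 ^ f := Nat.pow_le_pow_right (by norm_num) hf
  · exact Or.inr (Or.inl h)
  · exact (Sp.psp4 (S.map e)).elim
  · exact (Unit.psu3_three hF (S.map e)).elim
  · exact (Unit.psu4_three hF (S.map e)).elim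
  · exact (Unit.psu4_two hF (S.map e)).elim
  · exact (Unit.psu5_two hF (S.map e)).elim
  · exact (GTwo.g2 (S.map e)).elim
  · exact (Sz.sz h S).elim
  · exact (Tits.tits (S.map e)).elim

/-- **the assembly** -/
theorem main {G : Type u} [Group G] [Finite G] [IsSimpleGroup G] (hT : ThreeThm.{u})
    (h1 : ∀ x y : G, orderOf x = 2 → orderOf y = 2 → IsConj x y)
    (t : G) (ht : orderOf t = 6) (hC : Subgroup.centralizer ({t} : Set G) = Subgroup.zpowers t)
    (hK : ∃ E : Subgroup G, IsKleinFour E) (hL : H517.NSC G ∨ List98 G) : Concl G := by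
  have H := Hyp.of_t h1 ht hC
  generalize t ^ 3 = z at H
  generalize t ^ 2 = x at H
  -- a second involution in `C(z)`
  have hv : ∃ v : G, v * v = 1 ∧ v ≠ 1 ∧ v ≠ z ∧ v * z = z * v := by
    obtain ⟨E, hE⟩ := hK
    have hEsq : ∀ e : E, e * e = 1 := fun e => by
      have h2 := Monoid.pow_exponent_eq_one e
      rw [hE.exponent_two, pow_two] at h2
      exact h2
    have hEcard : Nat.card E = 4 := hE.card_four
    obtain ⟨a, ha⟩ : ∃ a : E, a ≠ 1 := by
      by_contra hcon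
      push Not at hcon
      have : Subsingleton E := ⟨fun a b => by rw [hcon a, hcon b]⟩
      rw [Nat.card_of_subsingleton (1 : E)] at hEcard
      omega
    obtain ⟨b, hb1, hba⟩ : ∃ b : E, b ≠ 1 ∧ b ≠ a := by
      by_contra hcon
      push Not at hcon
      have h2 : (Set.univ : Set E) ⊆ {1, a} := fun e _ => by
        by_cases he : e = 1
        · exact Or.inl he
        · exact Or.inr (hcon e he)
      have h3 := Set.ncard_le_ncard h2 (Set.toFinite _)
      have h4 := (Set.ncard_insert_le (1 : E) {a})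
      rw [Set.ncard_singleton] at h4
      rw [Set.ncard_univ, hEcard] at h3
      omega
    obtain ⟨g, hg⟩ := H.conj_invol (i := (a : G)) (congrArg Subtype.val (hEsq a)) (fun h => ha (Subtype.ext h))
      H.zz H.z1
    have hab : b * a = a * b := by
      have h2 := hEsq (b * a)
      have h3 : b * a = (b * a)⁻¹ := eq_inv_of_mul_eq_one_left h2
      rw [mul_inv_rev, ← eq_inv_of_mul_eq_one_left (hEsq a), ← eq_inv_of_mul_eq_one_left (hEsq b)] at h3
      exact h3
    have hab' : (b : G) * a = a * b := congrArg Subtype.val hab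
    have hbb : (b : G) * b = 1 := congrArg Subtype.val (hEsq b)
    refine ⟨g * b * g⁻¹, ?_, ?_, ?_, ?_⟩
    · calc g * b * g⁻¹ * (g * b * g⁻¹) = g * (b * b) * g⁻¹ := by group
        _ = 1 := by rw [hbb, mul_one, mul_inv_cancel]
    · intro h
      apply hb1
      apply Subtype.ext
      have h2 : (b : G) = g⁻¹ * (g * b * g⁻¹) * g := by group
      rw [h, mul_one, inv_mul_cancel] at h2
      exact h2
    · intro h
      apply hba
      apply Subtype.ext
      rw [← hg] at h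
      exact mul_left_cancel (mul_right_cancel h)
    · rw [← hg]
      calc g * b * g⁻¹ * (g * a * g⁻¹) = g * (b * a) * g⁻¹ := by group
        _ = g * (a * b) * g⁻¹ := by rw [hab']
        _ = g * a * g⁻¹ * (g * b * g⁻¹) := by group
  rcases H.cases hT with ⟨hs, h9, htp⟩ | ⟨π, hs, hk⟩ | ⟨⟨e⟩⟩
  · rcases hL with ⟨i, hi1, hi, hns⟩ | hL
    · exfalso
      apply hns
      obtain ⟨g, rfl⟩ := H.one i hi hi1
      have := hs
      refine Group.isSolvable_of_surjective (G := centralizer ({z} : Set G))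
        (f := ((MulAut.conj g).toMonoidHom.comp (centralizer ({z} : Set G)).subtype).codRestrict
          (centralizer ({g * z * g⁻¹} : Set G)) ?_) ?_
      · intro c
        rw [mem_centralizer_singleton_iff]
        have hc := mem_centralizer_singleton_iff.1 c.2
        show g * c * g⁻¹ * (g * z * g⁻¹) = g * z * g⁻¹ * (g * c * g⁻¹)
        calc g * c * g⁻¹ * (g * z * g⁻¹) = g * (c * z) * g⁻¹ := by group
          _ = g * (z * c) * g⁻¹ := by rw [hc]
          _ = g * z * g⁻¹ * (g * c * g⁻¹) := by group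
      · rintro ⟨c, hc⟩
        have hc := mem_centralizer_singleton_iff.1 hc
        refine ⟨⟨g⁻¹ * c * g, ?_⟩, ?_⟩
        · rw [mem_centralizer_singleton_iff]
          calc g⁻¹ * c * g * z = g⁻¹ * (c * (g * z * g⁻¹)) * g := by group
            _ = g⁻¹ * (g * z * g⁻¹ * c) * g := by rw [hc]
            _ = z * (g⁻¹ * c * g) := by group
        · apply Subtype.ext
          show g * (g⁻¹ * c * g) * g⁻¹ = c
          group
    · exact solv (H.sHyp h9 htp) hL
  · exact Or.inr (Or.inr (Or.inr (H.jone π hs hk hv)))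
  · exact (H.not_seven e hv).elim

end Cfsg.Agent.H395.Six
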